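import Cfsg.Agent.Lib.FitHeight.HallHigman
import Cfsg.Agent.Lib.FitHeight.CornerBasic
import Cfsg.Agent.Lib.Coprime.Action
import Cfsg.Agent.Lib.Hall.Solvable

/-! A fixed-point-free operator of prime order on an elementary abelian group commutes with the
coprime groups it normalises, outside the Fermat exception. -/

set_option autoImplicit false
set_option linter.style.haveILetI false

namespace Cfsg.Agent.Lib.FitHeight

open scoped Pointwise commutatorElement
open Subgroup Cfsg.Agent.Lib.Coprime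

section act

variable {Γ : Type*} [Group Γ] [Finite Γ] {V : Type*} [CommGroup V] [Finite V]
  [MulDistribMulAction Γ V] {p q l : ℕ}

theorem card_coprime_of_exponent (hl : l.Prime) (hVl : ∀ v : V, v ^ l = 1) {n : ℕ}
    (hn : n.Coprime l) : n.Coprime (Nat.card V) := by
  haveI := Fact.mk hl
  obtain ⟨m, hm⟩ := IsPGroup.iff_card.mp (show IsPGroup l V from fun v => ⟨1, by rw [pow_one]; exact hVl v⟩)
  rw [hm]
  exact hn.pow_right m

/-- A fixed-point-free operator of prime order commutes, on the module, with each `q`-group it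
normalises. -/
theorem commute_of_fpf_qgroup (hl : l.Prime) (hp : p.Prime) (hq : q.Prime) (hqp : q ≠ p) (hlp : l ≠ p)
    (hlq : l ≠ q) {Q : Subgroup Γ} (hex : NotException p q ∨ ∀ a ∈ Q, ∀ b ∈ Q, a * b = b * a)
    (hQ : IsPGroup q Q) {f : Γ} (hfQ : f ∈ normalizer (Q : Set Γ)) (hf : f ^ p = 1)
    (hVl : ∀ v : V, v ^ l = 1) (hfix : ∀ v : V, f • v = v → v = 1) :
    ∀ y ∈ Q, ∀ v : V, f • y • v = y • f • v := by
  rcases hex with hex | hex
  · intro y hy v
    exact commute_of_cycProd_eq_one hl hp hq hqp hlp hlq hex hQ hfQ hf ⊤ (fun w _ => hVl w)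
      (fun _ _ _ _ => mem_top _) (fun _ _ => mem_top _)
      (fun w _ => hfix _ (smul_cycProd hf w)) y hy v (mem_top v)
  · haveI := Fact.mk hq
    obtain ⟨m, hm⟩ := IsPGroup.iff_card.mp hQ
    refine commute_of_fpf_abelian hp hf hfix hfQ ?_ (card_coprime_of_exponent hl hVl ?_)
      fun a ha b hb v => by rw [← mul_smul, hex a ha b hb, mul_smul]
    · rw [hm]; exact ((Nat.coprime_primes hp hq).mpr hqp.symm).pow_right m
    · rw [hm]; exact ((Nat.coprime_primes hq hl).mpr hlq.symm).pow_left m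

/-- A fixed-point-free operator of prime order commutes, on the module, with the coprime groups it
normalises which have order prime to the characteristic. -/
theorem commute_of_fpf (hl : l.Prime) (hp : p.Prime) (hlp : l ≠ p) {K : Subgroup Γ} {f : Γ}
    (hfK : f ∈ normalizer (K : Set Γ)) (hf : f ^ p = 1) (hpK : p.Coprime (Nat.card K))
    (hlK : l.Coprime (Nat.card K))
    (hex : ∀ q : ℕ, q.Prime → q ∣ Nat.card K → NotException p q)
    (hVl : ∀ v : V, v ^ l = 1) (hfix : ∀ v : V, f • v = v → v = 1) :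
    ∀ k ∈ K, ∀ v : V, f • k • v = k • f • v := by
  let ρ : Γ →* MulAut V := MulDistribMulAction.toMulAut Γ V
  let S : Subgroup Γ := (centralizer ({ρ f} : Set (MulAut V))).comap ρ
  have hS : ∀ k : Γ, (∀ v : V, f • k • v = k • f • v) ↔ k ∈ S := by
    intro k
    simp only [S, mem_comap, mem_centralizer_iff, Set.mem_singleton_iff, forall_eq]
    exact ⟨fun h => MulEquiv.ext h, fun h v => DFunLike.congr_fun h v⟩
  suffices h : K ≤ S from fun k hk => (hS k).mpr (h hk)
  rw [← subgroupOf_eq_top, ← index_eq_one]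
  by_contra hne
  obtain ⟨q, hq, hqd⟩ := Nat.exists_prime_and_dvd hne
  haveI := Fact.mk hq
  have hqK : q ∣ Nat.card K := hqd.trans (index_dvd_card _)
  have hqp : q ≠ p := fun h => hp.ne_one (Nat.eq_one_of_dvd_coprimes hpK dvd_rfl (h ▸ hqK))
  have hlq : l ≠ q := fun h => hl.ne_one (Nat.eq_one_of_dvd_coprimes hlK dvd_rfl (h.symm ▸ hqK))
  obtain ⟨P, hP⟩ := exists_invariant_sylow (A := zpowers f) (K := K) (zpowers_le.mpr hfK)
    (by rw [Nat.card_zpowers]; exact hpK.coprime_dvd_left (orderOf_dvd_of_pow_eq_one hf))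
    (Or.inl (Group.isSolvable_of_comm fun a b => mul_comm' a b)) q
  have hle : (P : Subgroup K) ≤ S.subgroupOf K := fun x hx => (hS (x : Γ)).mp
    (commute_of_fpf_qgroup hl hp hq hqp hlp hlq (Or.inl (hex q hq hqK))
      (P.isPGroup'.map K.subtype) (hP (mem_zpowers f)) hf hVl hfix x ⟨x, hx, rfl⟩)
  exact P.not_dvd_index (hqd.trans (index_dvd_of_le hle))

end act

section irr

variable {Γ : Type*} [Group Γ] [Finite Γ] {V : Type*} [CommGroup V] [Finite V]
  [MulDistribMulAction Γ V] {p l : ℕ}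

/-- On an irreducible faithful module a fixed-point-free operator of prime order centralises every
coprime solvable normal subgroup, outside the Fermat exception. -/
theorem commute_of_fpf_irreducible (hl : l.Prime) (hp : p.Prime) (hlp : l ≠ p)
    (hfaith : ∀ g : Γ, (∀ v : V, g • v = v) → g = 1)
    (hirr : ∀ W : Subgroup V, (∀ g : Γ, ∀ w ∈ W, g • w ∈ W) → W = ⊥ ∨ W = ⊤)
    {K : Subgroup Γ} [K.Normal] [Group.IsSolvable K] {f : Γ} (hf : f ^ p = 1)
    (hpK : p.Coprime (Nat.card K)) (hex : ∀ q : ℕ, q.Prime → q ∣ Nat.card K → NotException p q)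
    (hVl : ∀ v : V, v ^ l = 1) (hfix : ∀ v : V, f • v = v → v = 1) :
    ∀ k ∈ K, f * k = k * f := by
  haveI := Fact.mk hl
  -- the `l`-core of `K` is trivial
  set O : Subgroup Γ := (Cfsg.pCore l K).map K.subtype with hO
  haveI hchar : ∀ r : ℕ, (Cfsg.pCore r K).Characteristic := fun r =>
    characteristic_iff_map_le.mpr fun e => (Hall.map_pCore_equiv r e).le
  haveI hOn : O.Normal := ConjAct.normal_of_characteristic_of_normal
  have hOp : IsPGroup l O := (Hall.isPGroup_pCore l).map _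
  have hObot : O = ⊥ := by
    let W : Subgroup V :=
      { carrier := {v | ∀ o ∈ O, o • v = v}
        one_mem' := fun o _ => smul_one o
        mul_mem' := fun {a b} ha hb o ho => by rw [smul_mul', ha o ho, hb o ho]
        inv_mem' := fun {a} ha o ho => by rw [smul_inv', ha o ho] }
    have hW : ∀ g : Γ, ∀ w ∈ W, g • w ∈ W := by
      intro g w hw o ho
      calc o • g • w = g • (g⁻¹ * o * g) • w := by simp [← mul_smul, mul_assoc]
        _ = g • w := by rw [hw _ (by simpa using hOn.conj_mem o ho g⁻¹)]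
    rcases hirr W hW with h | h
    · by_cases hV : Nat.card V = 1
      · refine (eq_bot_iff_forall O).mpr fun o _ => hfaith o fun v => ?_
        exact (Nat.card_eq_one_iff_unique.mp hV).1.elim _ _
      exfalso
      obtain ⟨m, hm⟩ := IsPGroup.iff_card.mp
        (show IsPGroup l V from fun v => ⟨1, by rw [pow_one]; exact hVl v⟩)
      have hdvd : l ∣ Nat.card V := by
        rw [hm]
        exact dvd_pow_self l (by rintro rfl; exact hV (by rw [hm, pow_zero]))
      have h1 : (1 : V) ∈ MulAction.fixedPoints O V := fun o => smul_one _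
      obtain ⟨b, hb, hb1⟩ := hOp.exists_fixed_point_of_prime_dvd_card_of_fixed_point V hdvd h1
      have : b ∈ W := fun o ho => hb ⟨o, ho⟩
      rw [h, mem_bot] at this
      exact hb1 this.symm
    · exact (eq_bot_iff_forall O).mpr fun o ho => hfaith o fun v =>
        (show v ∈ W from h.symm ▸ mem_top v) o ho
  set F : Subgroup Γ := (Cfsg.fittingSubgroup K).map K.subtype with hF
  have hFle : F ≤ centralizer ({f} : Set Γ) := by
    rw [hF, Hall.fittingSubgroup_eq_iSup_pCore, Subgroup.map_iSup, iSup_le_iff]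
    rintro ⟨r, hr⟩
    haveI := Fact.mk hr
    rcases eq_or_ne r l with rfl | hrl
    · rw [← hO, hObot]; exact bot_le
    rintro _ ⟨x, hx, rfl⟩
    rcases eq_or_ne r p with rfl | hrp
    · have hbot : Cfsg.pCore r K = ⊥ :=
        Hall.pCore_eq_bot_of_not_dvd fun h => hp.ne_one (Nat.eq_one_of_dvd_coprimes hpK dvd_rfl h)
      rw [hbot] at hx
      rw [show x = 1 from mem_bot.mp hx, map_one]
      exact one_mem _
    by_cases hdvd : r ∣ Nat.card K
    · rw [mem_centralizer_singleton_iff]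
      haveI hn : ((Cfsg.pCore r K).map K.subtype).Normal := ConjAct.normal_of_characteristic_of_normal
      have hc := commute_of_fpf_qgroup (Γ := Γ) (V := V) hl hp hr hrp hlp hrl.symm
        (Or.inl (hex r hr hdvd)) ((Hall.isPGroup_pCore r).map K.subtype)
        (Q := (Cfsg.pCore r K).map K.subtype) (f := f)
        (by rw [normalizer_eq_top]; exact mem_top f) hf hVl hfix (x : Γ) ⟨x, hx, rfl⟩
      have h1 := hfaith ((f * x)⁻¹ * (x * f)) fun v => by
        rw [mul_smul, inv_smul_eq_iff, mul_smul, mul_smul]; exact (hc v).symm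
      exact inv_mul_eq_one.mp h1 |>.symm
    · rw [Hall.pCore_eq_bot_of_not_dvd hdvd] at hx
      rw [show x = 1 from mem_bot.mp hx, map_one]
      exact one_mem _
  intro k hk
  set c := f * k * f⁻¹ * k⁻¹ with hc
  have hcK : c ∈ K := K.mul_mem (Subgroup.Normal.conj_mem inferInstance k hk f) (K.inv_mem hk)
  have hcomm : ∀ y ∈ F, f * y = y * f := fun y hy =>
    (mem_centralizer_singleton_iff.mp (hFle hy)).symm
  have hcF : c ∈ F := by
    haveI : (Cfsg.fittingSubgroup K).Normal := Subgroup.sSup_normal _ fun _ h => h.1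
    refine ⟨⟨c, hcK⟩, Hall.centralizer_fittingSubgroup_le ?_, rfl⟩
    rw [mem_centralizer_iff]
    rintro ⟨y, hyK⟩ hy
    have hyF : y ∈ F := ⟨⟨y, hyK⟩, hy, rfl⟩
    have hky : k⁻¹ * y * k ∈ F := by
      refine ⟨⟨k, hk⟩⁻¹ * ⟨y, hyK⟩ * ⟨k, hk⟩, ?_, rfl⟩
      simpa using Subgroup.Normal.conj_mem inferInstance _ hy (⟨k, hk⟩ : K)⁻¹
    apply Subtype.ext
    show y * c = c * y
    have h1 : f⁻¹ * y * f = y := by
      rw [mul_assoc, ← hcomm y hyF, inv_mul_cancel_left]
    have h2 : f * (k⁻¹ * y * k) * f⁻¹ = k⁻¹ * y * k := by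
      rw [hcomm _ hky, mul_inv_cancel_right]
    rw [eq_comm, ← eq_mul_inv_iff_mul_eq]
    calc c = f * k * f⁻¹ * k⁻¹ := rfl
      _ = f * k * (k⁻¹ * y * k * (k⁻¹ * y * k)⁻¹) * f⁻¹ * k⁻¹ := by simp
      _ = f * k * (k⁻¹ * y * k) * f⁻¹ * (f * (k⁻¹ * y * k) * f⁻¹)⁻¹ * k⁻¹ := by group
      _ = f * k * (k⁻¹ * y * k) * f⁻¹ * (k⁻¹ * y * k)⁻¹ * k⁻¹ := by rw [h2]
      _ = (f * y * f⁻¹) * c * y⁻¹ := by rw [hc]; group
      _ = y * c * y⁻¹ := by rw [hcomm y hyF, mul_inv_cancel_right]
  have hj : ∀ j : ℕ, f ^ j * k * (f ^ j)⁻¹ = c ^ j * k := by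
    intro j
    induction j with
    | zero => simp
    | succ j ih =>
      calc f ^ (j + 1) * k * (f ^ (j + 1))⁻¹ = f * (f ^ j * k * (f ^ j)⁻¹) * f⁻¹ := by
            rw [pow_succ']; group
        _ = f * c ^ j * k * f⁻¹ := by rw [ih]; group
        _ = c ^ j * (f * k * f⁻¹) := by
            rw [hcomm _ (pow_mem hcF j)]; group
        _ = c ^ (j + 1) * k := by rw [pow_succ, hc]; group
  have h1 := hj p
  rw [hf, one_mul, inv_one, mul_one, right_eq_mul] at h1
  have hc1 : c = 1 := by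
    rw [← orderOf_eq_one_iff]
    exact Nat.eq_one_of_dvd_coprimes hpK (orderOf_dvd_of_pow_eq_one h1)
      (by simpa using orderOf_dvd_natCard (⟨c, hcK⟩ : K))
  rw [hc, mul_inv_eq_one, mul_inv_eq_iff_eq_mul] at hc1
  exact hc1

end irr

section group

variable {X : Type*} [Group X] [Finite X]

/-- The conjugation action of the normaliser on an abelian subgroup. -/
abbrev normAction (V : Subgroup X) [IsMulCommutative V] :
    MulDistribMulAction (normalizer (V : Set X)) (V.subgroupOf (normalizer (V : Set X))) :=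
  MulDistribMulAction.compHom _ (MulAut.conjNormal
    (H := V.subgroupOf (normalizer (V : Set X))))

/-- Group form: outside the Fermat exception a fixed-point-free element of prime order commutes
modulo the centraliser of `V` with the coprime groups it normalises. -/
theorem commutator_mem_centralizer_of_fpf {l p : ℕ} (hl : l.Prime) (hp : p.Prime) (hlp : l ≠ p)
    {V K : Subgroup X} [IsMulCommutative V] (hVl : ∀ v ∈ V, v ^ l = 1)
    (hKV : K ≤ normalizer (V : Set X)) {f : X} (hfV : f ∈ normalizer (V : Set X))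
    (hfK : f ∈ normalizer (K : Set X)) (hf : f ^ p = 1)
    (hfix : ∀ v ∈ V, f * v = v * f → v = 1) (hpK : p.Coprime (Nat.card K))
    (hlK : l.Coprime (Nat.card K))
    (hex : ∀ q : ℕ, q.Prime → q ∣ Nat.card K →
      NotException p q ∨ (∀ a ∈ K, ∀ b ∈ K, a * b = b * a) ∧ IsPGroup q K) :
    ∀ k ∈ K, ⁅k, f⁆ ∈ centralizer (V : Set X) := by
  set N := normalizer (V : Set X) with hN
  haveI : IsMulCommutative (V.subgroupOf N) :=
    ⟨⟨fun a b => by
      have h : (⟨a.1.1, a.2⟩ : V) * ⟨b.1.1, b.2⟩ = ⟨b.1.1, b.2⟩ * ⟨a.1.1, a.2⟩ := mul_comm' _ _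
      exact Subtype.ext (Subtype.ext (show (a.1.1 : X) * b.1.1 = b.1.1 * a.1.1 from congrArg (fun z : V => (z : X)) h))⟩⟩
  letI : CommGroup (V.subgroupOf N) :=
    { (inferInstance : Group (V.subgroupOf N)) with mul_comm := fun a b => mul_comm' a b }
  letI : MulDistribMulAction N (V.subgroupOf N) :=
    MulDistribMulAction.compHom _ (MulAut.conjNormal (H := V.subgroupOf N))
  have hsmul : ∀ (g : N) (v : V.subgroupOf N), (((g • v : V.subgroupOf N) : N) : X) = g * v * (g : X)⁻¹ :=
    fun g v => rfl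
  set K' := K.subgroupOf N with hK'
  have hcard : Nat.card K' = Nat.card K := Nat.card_congr (subgroupOfEquivOfLe hKV).toEquiv
  have hfK' : (⟨f, hfV⟩ : N) ∈ normalizer (K' : Set N) := by
    rw [mem_normalizer_iff]
    exact fun y => mem_normalizer_iff.mp hfK (y : X)
  have hVl' : ∀ v : V.subgroupOf N, v ^ l = 1 := fun v =>
    Subtype.ext (Subtype.ext (by simpa using hVl _ v.2))
  have hfix' : ∀ v : V.subgroupOf N, (⟨f, hfV⟩ : N) • v = v → v = 1 := by
    intro v hv
    refine Subtype.ext (Subtype.ext ?_)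
    have h := congrArg (fun w : V.subgroupOf N => ((w : N) : X)) hv
    simp only [hsmul] at h
    exact hfix _ v.2 (mul_inv_eq_iff_eq_mul.mp h)
  have key : ∀ k ∈ K', ∀ v : V.subgroupOf N, (⟨f, hfV⟩ : N) • k • v = k • (⟨f, hfV⟩ : N) • v := by
    by_cases hall : ∀ q : ℕ, q.Prime → q ∣ Nat.card K' → NotException p q
    · exact commute_of_fpf hl hp hlp hfK' (Subtype.ext hf) (hcard ▸ hpK) (hcard ▸ hlK) hall hVl' hfix'
    · push Not at hall
      obtain ⟨q, hq, hqd, hnot⟩ := hall
      rw [hcard] at hqd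
      obtain ⟨hab, hKq⟩ := (hex q hq hqd).resolve_left hnot
      haveI := Fact.mk hq
      refine commute_of_fpf_qgroup hl hp hq ?_ hlp ?_ (Or.inr fun a ha b hb => Subtype.ext
        (hab _ ha _ hb)) hKq.comap_subtype hfK' (Subtype.ext hf) hVl' hfix'
      · exact fun h => hp.ne_one (Nat.eq_one_of_dvd_coprimes hpK dvd_rfl (h ▸ hqd))
      · exact fun h => hl.ne_one (Nat.eq_one_of_dvd_coprimes hlK dvd_rfl (h.symm ▸ hqd))
  intro k hk
  rw [mem_centralizer_iff]
  intro v hv
  set u : X := k⁻¹ * (f⁻¹ * v * f) * k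
  have hu : u ∈ V := by
    have h1 := (mem_normalizer_iff.mp (inv_mem (s := N) (hKV hk)) _).mp
      ((mem_normalizer_iff.mp (inv_mem (s := N) hfV) v).mp hv)
    simpa [u, mul_assoc] using h1
  have h := key ⟨k, hKV hk⟩ hk ⟨⟨u, le_normalizer hu⟩, hu⟩
  have h' := congrArg (fun w : V.subgroupOf N => ((w : N) : X)) h
  simp only [hsmul] at h'
  have hv' : f * (k * u * k⁻¹) * f⁻¹ = v := by simp [u, mul_assoc]
  rw [hv'] at h'
  rw [eq_comm, ← mul_inv_eq_iff_eq_mul, commutatorElement_def]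
  calc k * f * k⁻¹ * f⁻¹ * v * (k * f * k⁻¹ * f⁻¹)⁻¹
      = k * (f * u * f⁻¹) * k⁻¹ := by simp [u, mul_assoc]
    _ = v := h'.symm

end group

end Cfsg.Agent.Lib.FitHeight
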