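import Cfsg.Agent.Lib.Coprime.Action
import Cfsg.Agent.Lib.Coprime.Abelian
import Mathlib.LinearAlgebra.Dual.Lemmas
import Mathlib.Algebra.Algebra.Operations
import Cfsg.Agent.Lib.PGroupFrattini
import Cfsg.Agent.Lib.FitHeight.WardCore
import Mathlib.RingTheory.SimpleModule.Basic
import Mathlib.RingTheory.Finiteness.Basic
import Mathlib.RepresentationTheory.AlgebraRepresentation.Basic
import Mathlib.LinearAlgebra.Dimension.Constructions
import Mathlib.LinearAlgebra.LinearIndependent.Basic
import Mathlib.LinearAlgebra.FiniteDimensional.Lemmas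
import Mathlib.LinearAlgebra.Eigenspace.Minpoly
import Mathlib.LinearAlgebra.Eigenspace.Triangularizable
import Mathlib.Algebra.Order.Chebyshev
import Mathlib.RingTheory.RootsOfUnity.AlgebraicallyClosed
import Mathlib.LinearAlgebra.TensorProduct.Basis
import Mathlib.FieldTheory.IsAlgClosed.AlgebraicClosure
import Mathlib.Algebra.Module.ZMod

/-! An element of prime order without fixed points on a module of coprime characteristic centralises
every `q`-group of operators it normalises, outside the Fermat exception. -/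

set_option autoImplicit false

namespace Cfsg.Agent.Lib.FitHeight

open scoped Pointwise commutatorElement
open Subgroup Cfsg.Agent.Lib.Coprime

universe u v w

section alg

variable {k : Type*} [Field k] [IsAlgClosed k] {W : Type*} [AddCommGroup W] [Module k W]
  [FiniteDimensional k W]

/-- A subalgebra of operators without proper invariant subspaces is everything (Burnside). -/
theorem subalgebra_eq_top [Nontrivial W] (S : Subalgebra k (Module.End k W))
    (h : ∀ U : Submodule k W, (∀ T ∈ S, ∀ u ∈ U, T u ∈ U) → U = ⊥ ∨ U = ⊤) : S = ⊤ := by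
  have hsimp : IsSimpleModule S W := by
    refine isSimpleModule_iff _ _ |>.mpr ⟨fun N => ?_⟩
    rcases h (N.restrictScalars k) (fun T hT u hu => N.smul_mem (⟨T, hT⟩ : S) hu) with e | e
    · exact Or.inl ((Submodule.restrictScalars_eq_bot_iff k S W).mp e)
    · exact Or.inr ((Submodule.restrictScalars_eq_top_iff k S W).mp e)
  have hfin : Module.Finite (Module.End S W) W := Module.Finite.of_restrictScalars_finite k _ _
  refine Algebra.eq_top_iff.mpr fun M => ?_
  have hc : ∀ g : Module.End S W, ∀ w : W, M (g w) = g (M w) := by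
    intro g w
    obtain ⟨c, rfl⟩ := (IsSimpleModule.algebraMap_end_bijective_of_isAlgClosed (A := S) (V := W) k).2 g
    simp [Module.algebraMap_end_apply]
  let M' : Module.End (Module.End S W) W :=
    { toFun := M
      map_add' := map_add M
      map_smul' := fun g w => hc g w }
  obtain ⟨r, hr⟩ := Module.Finite.toModuleEnd_moduleEnd_surjective (R := S) (M := W) M'
  have : (r : Module.End k W) = M := LinearMap.ext fun w => congrArg (fun F : Module.End (Module.End S W) W => F w) hr
  exact this ▸ r.2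

/-- Schur: an operator commuting with an irreducible set of operators is scalar. -/
theorem exists_scalar_of_commute [Nontrivial W] (s : Set (Module.End k W))
    (hirr : ∀ U : Submodule k W, (∀ T ∈ s, ∀ u ∈ U, T u ∈ U) → U = ⊥ ∨ U = ⊤) {M : Module.End k W}
    (hM : ∀ T ∈ s, T * M = M * T) : ∃ c : k, M = c • 1 := by
  obtain ⟨c, hc⟩ := Module.End.exists_eigenvalue M
  refine ⟨c, LinearMap.ext fun w => ?_⟩
  rcases hirr (Module.End.eigenspace M c) (fun T hT u hu => by
    rw [Module.End.mem_eigenspace_iff] at hu ⊢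
    have h1 : M (T u) = T (M u) := (LinearMap.congr_fun (hM T hT) u).symm
    rw [h1, hu, map_smul]) with h | h
  · exact absurd h hc
  · have hw : w ∈ Module.End.eigenspace M c := h ▸ Submodule.mem_top
    rw [Module.End.mem_eigenspace_iff] at hw
    simpa using hw

/-- The centraliser of an operator of finite order without fixed points is large. -/
theorem sq_le_mul_finrank_centralizer {p : ℕ} (hp0 : (p : k) ≠ 0) {F : Module.End k W}
    (hF : F ^ p = 1) (hsum : ∑ i ∈ Finset.range p, F ^ i = 0) :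
    Module.finrank k W ^ 2 ≤
      (p - 1) * Module.finrank k (Subalgebra.centralizer k ({F} : Set (Module.End k W))) := by
  classical
  haveI : NeZero (p : k) := ⟨hp0⟩
  obtain ⟨ζ, hζ⟩ := (IsSepClosed.hasEnoughRootsOfUnity k p).prim
  have hp : 0 < p := Nat.pos_of_ne_zero fun h => hp0 (by simp [h])
  let e : ℕ → Module.End k W := fun j => (p : k)⁻¹ • ∑ i ∈ Finset.range p, (ζ⁻¹ ^ (j * i)) • F ^ i
  have hζp : ζ ^ p = 1 := hζ.pow_eq_one
  have hζ0 : ζ ≠ 0 := hζ.ne_zero hp.ne'
  have shift : ∀ (g : ℕ → Module.End k W), g p = g 0 →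
      ∑ i ∈ Finset.range p, g (i + 1) = ∑ i ∈ Finset.range p, g i := by
    intro g hg
    have := Finset.sum_range_succ' g p
    rw [Finset.sum_range_succ, hg] at this
    exact (add_right_cancel this).symm
  have hFe : ∀ j, F * e j = ζ ^ j • e j := by
    intro j
    have h1 := shift (fun i => (ζ⁻¹ ^ (j * i)) • F ^ i) (by
      rw [hF, Nat.mul_comm j p, pow_mul, inv_pow, hζp, inv_one, one_pow, mul_zero, pow_zero, pow_zero,
        one_smul])
    simp only [e, Algebra.mul_smul_comm, Finset.mul_sum]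
    rw [smul_comm (ζ ^ j) (p : k)⁻¹]
    congr 1
    conv_rhs => rw [← h1, Finset.smul_sum]
    refine Finset.sum_congr rfl fun i _ => ?_
    rw [← pow_succ', smul_smul]
    congr 1
    rw [mul_add, pow_add, mul_one, inv_pow ζ j, mul_comm (ζ⁻¹ ^ (j * i)), ← mul_assoc,
      mul_inv_cancel₀ (pow_ne_zero j hζ0), one_mul]
  have heF : ∀ j, e j * F = F * e j := fun j => by
    simp only [e, Algebra.smul_mul_assoc, Algebra.mul_smul_comm, Finset.sum_mul, Finset.mul_sum,
      ← pow_succ, ← pow_succ']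
  have hsum_e : ∑ j ∈ Finset.range p, e j = 1 := by
    simp only [e, ← Finset.smul_sum]
    rw [Finset.sum_comm, Finset.sum_eq_single 0]
    · simp only [mul_zero, pow_zero, one_smul, Finset.sum_const, Finset.card_range,
        ← Nat.cast_smul_eq_nsmul k, smul_smul, inv_mul_cancel₀ hp0]
    · intro i hi hi0
      rw [← Finset.sum_smul]
      have h1 : ζ⁻¹ ^ i ≠ 1 := by
        rw [inv_pow, inv_ne_one]
        exact hζ.pow_ne_one_of_pos_of_lt hi0 (Finset.mem_range.mp hi)
      have h2 : ∑ j ∈ Finset.range p, (ζ⁻¹ ^ i) ^ j = 0 := by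
        rw [geom_sum_eq h1, ← pow_mul, Nat.mul_comm, pow_mul, inv_pow ζ p, hζp, inv_one, one_pow, sub_self,
          zero_div]
      rw [Finset.sum_congr rfl fun j _ => (by rw [← pow_mul, Nat.mul_comm] :
        ζ⁻¹ ^ (j * i) = (ζ⁻¹ ^ i) ^ j), h2, zero_smul]
    · intro h; exact absurd (Finset.mem_range.mpr hp) h
  have he0 : e 0 = 0 := by simp [e, hsum]
  let V : Fin (p - 1) → Submodule k W := fun j => LinearMap.range (e (j + 1))
  have hev : ∀ j : Fin (p - 1), ∀ w ∈ V j, F w = ζ ^ ((j : ℕ) + 1) • w := by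
    rintro j _ ⟨u, rfl⟩
    exact LinearMap.congr_fun (hFe _) u
  have hFpow : ∀ (j : Fin (p - 1)) (i : ℕ), ∀ w ∈ V j, (F ^ i) w = (ζ ^ ((j : ℕ) + 1)) ^ i • w := by
    intro j i w hw
    induction i with
    | zero => simp
    | succ i ih => rw [pow_succ', Module.End.mul_apply, ih, map_smul, hev j w hw, smul_smul, ← pow_succ]
  have hdelta : ∀ (i j : Fin (p - 1)), ∀ w ∈ V j, e (i + 1) w = if i = j then w else 0 := by
    intro i j w hw
    simp only [e, LinearMap.smul_apply, LinearMap.coe_sum, Finset.sum_apply]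
    rw [Finset.sum_congr rfl fun t _ => (by
      rw [hFpow j t w hw, smul_smul, ← pow_mul, ← pow_mul, Nat.mul_comm t] :
        (ζ⁻¹ ^ (((i : ℕ) + 1) * t)) • (F ^ t) w =
          (((ζ⁻¹) ^ t) ^ ((i : ℕ) + 1) * (ζ ^ ((j : ℕ) + 1)) ^ t) • w), ← Finset.sum_smul, smul_smul]
    split
    · next h =>
      subst h
      rw [Finset.sum_congr rfl fun t _ => (by
        rw [← pow_mul, ← pow_mul, inv_pow, mul_comm t, inv_mul_cancel₀ (pow_ne_zero _ hζ0)] :
          ((ζ⁻¹) ^ t) ^ ((i : ℕ) + 1) * (ζ ^ ((i : ℕ) + 1)) ^ t = 1)]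
      simp [inv_mul_cancel₀ hp0]
    · next h =>
      have hne : (ζ⁻¹) ^ ((i : ℕ) + 1) * ζ ^ ((j : ℕ) + 1) ≠ 1 := by
        intro h1
        apply h
        rw [inv_pow, inv_mul_eq_one₀ (pow_ne_zero _ hζ0)] at h1
        have := hζ.pow_inj (by omega) (by omega) h1
        exact Fin.ext (by omega)
      rw [Finset.sum_congr rfl fun t _ => (by
        rw [← pow_mul, mul_comm t, pow_mul, ← mul_pow] :
          ((ζ⁻¹) ^ t) ^ ((i : ℕ) + 1) * (ζ ^ ((j : ℕ) + 1)) ^ t =
            ((ζ⁻¹) ^ ((i : ℕ) + 1) * ζ ^ ((j : ℕ) + 1)) ^ t), geom_sum_eq hne]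
      have : ((ζ⁻¹) ^ ((i : ℕ) + 1) * ζ ^ ((j : ℕ) + 1)) ^ p = 1 := by
        rw [mul_pow, ← pow_mul, ← pow_mul, mul_comm _ p, mul_comm _ p, pow_mul, pow_mul, inv_pow ζ p, hζp,
          inv_one, one_pow, one_pow, one_mul]
      rw [this, sub_self, zero_div, mul_zero, zero_smul]
  let sumMap : (Π j, V j) →ₗ[k] W := ∑ j, (V j).subtype ∘ₗ LinearMap.proj j
  have hsurj : Function.Surjective sumMap := by
    intro w
    refine ⟨fun j => ⟨e (j + 1) w, LinearMap.mem_range_self _ w⟩, ?_⟩
    simp only [sumMap, LinearMap.coe_sum, Finset.sum_apply, LinearMap.coe_comp, Function.comp_apply,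
      LinearMap.proj_apply, Submodule.coe_subtype]
    have h1 := LinearMap.congr_fun hsum_e w
    rw [LinearMap.coe_sum, Finset.sum_apply, show p = (p - 1) + 1 by omega, Finset.sum_range_succ', he0,
      LinearMap.zero_apply, add_zero, Finset.sum_range] at h1
    simpa using h1
  let T : (Π j, Module.End k (V j)) →ₗ[k] Subalgebra.centralizer k ({F} : Set (Module.End k W)) :=
    { toFun := fun M => ⟨∑ j, (V j).subtype ∘ₗ M j ∘ₗ (e (j + 1)).rangeRestrict, by
        rw [Subalgebra.mem_centralizer_iff]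
        intro F' hF'
        rw [Set.mem_singleton_iff.mp hF']
        apply LinearMap.ext
        intro w
        simp only [Module.End.mul_apply, LinearMap.coe_sum, Finset.sum_apply, map_sum, LinearMap.coe_comp,
          Function.comp_apply, Submodule.coe_subtype]
        refine Finset.sum_congr rfl fun j _ => ?_
        rw [hev j _ (M j _).2]
        have h1 : (e (j + 1)).rangeRestrict (F w) = ζ ^ ((j : ℕ) + 1) • (e (j + 1)).rangeRestrict w := by
          apply Subtype.ext
          show (e (j + 1) * F) w = ζ ^ ((j : ℕ) + 1) • e (j + 1) w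
          rw [heF, hFe]; rfl
        rw [h1, map_smul, Submodule.coe_smul]⟩
      map_add' := fun M N => by
        apply Subtype.ext; simp [LinearMap.add_comp, LinearMap.comp_add, Finset.sum_add_distrib]
      map_smul' := fun c M => by
        apply Subtype.ext; simp [LinearMap.smul_comp, LinearMap.comp_smul, Finset.smul_sum] }
  have hT : Function.Injective T := by
    intro M N h
    funext j
    apply LinearMap.ext
    intro w
    have h1 := LinearMap.congr_fun (congrArg Subtype.val h) (w : W)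
    have key : ∀ M : Π j, Module.End k (V j), ((T M : Module.End k W)) w = (M j w : W) := by
      intro M
      show (∑ i, (V i).subtype ∘ₗ M i ∘ₗ (e (i + 1)).rangeRestrict) (w : W) = _
      simp only [LinearMap.coe_sum, Finset.sum_apply, LinearMap.coe_comp, Function.comp_apply,
        Submodule.coe_subtype]
      rw [Finset.sum_eq_single j]
      · have : (e (j + 1)).rangeRestrict (w : W) = w := Subtype.ext (by
          show e (j + 1) (w : W) = _
          rw [hdelta j j w w.2, if_pos rfl])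
        rw [this]
      · intro i _ hij
        have : (e (i + 1)).rangeRestrict (w : W) = 0 := Subtype.ext (by
          show e (i + 1) (w : W) = _
          rw [hdelta i j w w.2, if_neg hij]; rfl)
        rw [this, map_zero, Submodule.coe_zero]
      · intro h; exact absurd (Finset.mem_univ j) h
    exact Subtype.ext ((key M).symm.trans (h1.trans (key N)))
  have hle := LinearMap.finrank_le_finrank_of_injective hT
  rw [Module.finrank_pi_fintype] at hle
  have hW : Module.finrank k W ≤ ∑ j, Module.finrank k (V j) := by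
    have := LinearMap.finrank_range_add_finrank_ker sumMap
    rw [LinearMap.range_eq_top.mpr hsurj, finrank_top, Module.finrank_pi_fintype] at this
    omega
  calc Module.finrank k W ^ 2 ≤ (∑ j, Module.finrank k (V j)) ^ 2 := Nat.pow_le_pow_left hW 2
    _ ≤ (Finset.univ : Finset (Fin (p - 1))).card * ∑ j, Module.finrank k (V j) ^ 2 :=
      sq_sum_le_card_mul_sum_sq
    _ ≤ (p - 1) * Module.finrank k (Subalgebra.centralizer k ({F} : Set (Module.End k W))) := by
      rw [Finset.card_univ, Fintype.card_fin]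
      refine Nat.mul_le_mul_left _ (le_of_eq_of_le (Finset.sum_congr rfl fun j _ => ?_) hle)
      rw [Module.finrank_linearMap, sq]

end alg

section counting

variable {k : Type*} [Field k] {E : Type*} [Ring E] [Algebra k E] [FiniteDimensional k E]

/-- If conjugation by `F` of order `p` permutes a spanning family up to scalars, freely away from
one index, the centraliser of `F` is spanned by one averaged element per orbit. -/
theorem mul_finrank_centralizer_le {p : ℕ} (hp : p.Prime) (hp0 : (p : k) ≠ 0) {F G : E} (hGF : G * F = 1)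
    (hF : F ^ p = 1) {X : Type*} [Fintype X] (σ : Equiv.Perm X) (x₀ : X) (hσp : σ ^ p = 1)
    (hfree : ∀ x, σ x = x → x = x₀) (hx₀ : σ x₀ = x₀) (T : X → E)
    (hT : ∀ x, ∃ c : k, F * T x * G = c • T (σ x)) (hspan : Submodule.span k (Set.range T) = ⊤) :
    p * Module.finrank k (Subalgebra.centralizer k ({F} : Set E)) ≤ Fintype.card X - 1 + p := by
  classical
  have hFG : F * G = 1 := by
    have h1 : F * F ^ (p - 1) = 1 := by rw [← pow_succ', Nat.sub_add_cancel hp.one_le, hF]
    have h2 : G = F ^ (p - 1) := by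
      calc G = G * (F * F ^ (p - 1)) := by rw [h1, mul_one]
        _ = F ^ (p - 1) := by rw [← mul_assoc, hGF, one_mul]
    rw [h2, h1]
  have hFGpow : ∀ i, F ^ i * G ^ i = 1 := fun i => by
    induction i with
    | zero => simp
    | succ i ih => rw [pow_succ, pow_succ', mul_assoc (F ^ i), ← mul_assoc F, hFG, one_mul, ih]
  have hGp : G ^ p = 1 := by have := hFGpow p; rwa [hF, one_mul] at this
  let P : E →ₗ[k] E :=
    (p : k)⁻¹ • ∑ i ∈ Finset.range p, LinearMap.mulLeftRight k (F ^ i, G ^ i)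
  have hP : ∀ M, P M = (p : k)⁻¹ • ∑ i ∈ Finset.range p, F ^ i * M * G ^ i := fun M => by
    simp [P, LinearMap.mulLeftRight_apply]
  have hPconj : ∀ M, P (F * M * G) = P M := by
    intro M
    rw [hP, hP]
    congr 1
    have := Finset.sum_range_succ' (fun i => F ^ i * M * G ^ i) p
    rw [Finset.sum_range_succ, hF, hGp] at this
    simp only [pow_zero] at this
    rw [add_right_cancel this]
    refine Finset.sum_congr rfl fun i _ => ?_
    rw [pow_succ, pow_succ']; simp only [mul_assoc]
  have horbit : ∀ (i : ℕ) (x : X), ∃ c : k, P (T x) = c • P (T ((σ ^ i) x)) := by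
    intro i
    induction i with
    | zero => exact fun x => ⟨1, by simp⟩
    | succ i ih =>
      intro x
      obtain ⟨c, hc⟩ := hT x
      obtain ⟨d, hd⟩ := ih (σ x)
      refine ⟨c * d, ?_⟩
      rw [← hPconj (T x), hc, map_smul, hd, smul_smul, pow_succ, Equiv.Perm.mul_apply]
  let ι := Fintype.equivFin X
  let R : Finset X := Finset.univ.filter fun x => ∀ i : ℕ, ι x ≤ ι ((σ ^ i) x)
  have hmod : ∀ (i : ℕ) (x : X), (σ ^ i) x = (σ ^ (i % p)) x := fun i x => by
    rw [← pow_eq_pow_mod i hσp]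
  have hrep : ∀ x, ∃ i : ℕ, (σ ^ i) x ∈ R := by
    intro x
    obtain ⟨i, -, hi⟩ := (Finset.range p).exists_min_image (fun i => ι ((σ ^ i) x))
      ⟨0, Finset.mem_range.mpr hp.pos⟩
    refine ⟨i, Finset.mem_filter.mpr ⟨Finset.mem_univ _, fun j => ?_⟩⟩
    rw [← Equiv.Perm.mul_apply, ← pow_add, hmod (j + i)]
    exact hi _ (Finset.mem_range.mpr (Nat.mod_lt _ hp.pos))
  have hcent : Subalgebra.toSubmodule (Subalgebra.centralizer k ({F} : Set E)) ≤
      Submodule.span k ((fun x => P (T x)) '' (R : Set X)) := by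
    intro M hM
    have hFM : F * M = M * F := Subalgebra.mem_centralizer_iff k |>.mp hM F rfl
    have hPM : P M = M := by
      have h1 : ∀ i ∈ Finset.range p, F ^ i * M * G ^ i = M := fun i _ => by
        rw [(Commute.pow_left (hFM : Commute F M) i).eq, mul_assoc, hFGpow, mul_one]
      rw [hP, Finset.sum_congr rfl h1, Finset.sum_const, Finset.card_range, ← Nat.cast_smul_eq_nsmul k,
        smul_smul, inv_mul_cancel₀ hp0, one_smul]
    rw [← hPM]
    have hle : Submodule.map P ⊤ ≤ Submodule.span k ((fun x => P (T x)) '' (R : Set X)) := by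
      rw [← hspan, Submodule.map_span, Submodule.span_le]
      rintro _ ⟨_, ⟨x, rfl⟩, rfl⟩
      obtain ⟨i, hi⟩ := hrep x
      obtain ⟨c, hc⟩ := horbit i x
      rw [hc]
      exact Submodule.smul_mem _ _ (Submodule.subset_span ⟨_, hi, rfl⟩)
    exact hle (Submodule.mem_map_of_mem Submodule.mem_top)
  have hdim : Module.finrank k (Subalgebra.centralizer k ({F} : Set E)) ≤ R.card := by
    refine (Submodule.finrank_mono hcent).trans ?_
    rw [← Finset.coe_image]
    exact (finrank_span_le_card _).trans (by simpa using Finset.card_image_le)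
  have hfix : ∀ (i : ℕ) (x : X), i < p → i ≠ 0 → (σ ^ i) x = x → x = x₀ := by
    intro i x hi hi0 hx
    apply hfree
    obtain ⟨m, -, hm⟩ := Nat.exists_mul_mod_eq_one_of_coprime
      ((Nat.coprime_of_lt_prime hi0 hi hp).symm) hp.one_lt
    have h1 : ∀ m : ℕ, ((σ ^ i) ^ m) x = x := fun m => by
      induction m with
      | zero => rfl
      | succ m ih => rw [pow_succ', Equiv.Perm.mul_apply, ih, hx]
    have := h1 m
    rwa [← pow_mul, hmod, hm, pow_one] at this
  have hne : ∀ (i : ℕ) (x : X), x ≠ x₀ → (σ ^ i) x ≠ x₀ := by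
    intro i x hx h
    apply hx
    have h0 : ∀ i : ℕ, (σ ^ i) x₀ = x₀ := fun i => by
      induction i with
      | zero => rfl
      | succ i ih => rw [pow_succ', Equiv.Perm.mul_apply, ih, hx₀]
    exact (σ ^ i).injective (h.trans (h0 i).symm)
  have hcard : p * (R.erase x₀).card ≤ Fintype.card X - 1 := by
    rw [Nat.mul_comm, ← Finset.card_range p, ← Finset.card_product, ← Finset.card_univ,
      ← Finset.card_erase_of_mem (Finset.mem_univ x₀)]
    refine Finset.card_le_card_of_injOn (fun a => (σ ^ a.2) a.1) ?_ ?_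
    · intro a ha
      simp only [Finset.coe_product, Set.mem_prod, Finset.coe_erase, Set.mem_diff,
        Set.mem_singleton_iff] at ha
      simp only [Finset.coe_erase, Finset.coe_univ, Set.mem_diff, Set.mem_univ, Set.mem_singleton_iff, true_and]
      exact hne _ _ ha.1.2
    · rintro ⟨x, i⟩ ha ⟨y, j⟩ hb h
      simp only [Finset.coe_product, Set.mem_prod, Finset.mem_coe, Finset.mem_erase, Finset.mem_range,
        R, Finset.mem_filter, Finset.mem_univ, true_and] at ha hb
      dsimp only at h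
      have hxy : ι x ≤ ι y := by
        have h1 := ha.1.2 (i + (p - j))
        rwa [pow_add, (Commute.pow_pow_self σ i (p - j)).eq, Equiv.Perm.mul_apply, h,
          ← Equiv.Perm.mul_apply, ← pow_add, Nat.sub_add_cancel hb.2.le, hσp] at h1
      have hyx : ι y ≤ ι x := by
        have h1 := hb.1.2 (j + (p - i))
        rwa [pow_add, (Commute.pow_pow_self σ j (p - i)).eq, Equiv.Perm.mul_apply, ← h,
          ← Equiv.Perm.mul_apply, ← pow_add, Nat.sub_add_cancel ha.2.le, hσp] at h1
      have hxy' : x = y := ι.injective (le_antisymm hxy hyx)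
      subst hxy'
      rcases lt_trichotomy i j with hij | hij | hij
      · exfalso
        refine ha.1.1 (hfix (j - i) x (by omega) (by omega) ((σ ^ i).injective ?_))
        rw [← Equiv.Perm.mul_apply, ← pow_add, Nat.add_sub_cancel' hij.le]
        exact h.symm
      · rw [hij]
      · exfalso
        refine ha.1.1 (hfix (i - j) x (by omega) (by omega) ((σ ^ j).injective ?_))
        rw [← Equiv.Perm.mul_apply, ← pow_add, Nat.add_sub_cancel' hij.le]
        exact h
  have hR : R.card ≤ (R.erase x₀).card + 1 := by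
    have := Finset.pred_card_le_card_erase (s := R) (a := x₀); omega
  calc p * Module.finrank k (Subalgebra.centralizer k ({F} : Set E)) ≤ p * R.card :=
        Nat.mul_le_mul_left _ hdim
    _ ≤ p * ((R.erase x₀).card + 1) := Nat.mul_le_mul_left _ hR
    _ ≤ Fintype.card X - 1 + p := by rw [mul_add, mul_one]; omega

end counting

section main

/-- The Fermat exception. -/
def NotException (p q : ℕ) : Prop := q ≠ 2 ∨ ¬ ∃ m, p = 2 ^ m + 1

variable {k : Type v} [Field k] [IsAlgClosed k] {p q : ℕ}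

theorem irreducible_case (hp : p.Prime) (hq : q.Prime) (hqp : q ≠ p) (hex : NotException p q) (hp0 : (p : k) ≠ 0)
    (hq0 : (q : k) ≠ 0) {Γ : Type u} [Group Γ] [Finite Γ] {W : Type w} [AddCommGroup W] [Module k W]
    [FiniteDimensional k W] [Nontrivial W] (ρ : Γ →* Module.End k W) (hinj : Function.Injective ρ)
    (Q : Subgroup Γ) (hQ : IsPGroup q Q) (f : Γ) (hfQ : f ∈ normalizer (Q : Set Γ)) (hf : f ^ p = 1)
    (hsum : ∑ i ∈ Finset.range p, ρ f ^ i = 0)
    (hirr : ∀ U : Submodule k W, (∀ y ∈ Q, ∀ u ∈ U, ρ y u ∈ U) → (∀ u ∈ U, ρ f u ∈ U) → U = ⊥ ∨ U = ⊤)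
    (hsmall : ∀ U : Subgroup Γ, U ≤ Q → U ≠ Q → f ∈ normalizer (U : Set Γ) → ∀ y ∈ U, f * y = y * f) :
    ∀ y ∈ Q, f * y = y * f := by
  classical
  have := Fact.mk hq
  have := Fintype.ofFinite Γ
  have hρf : ρ f ^ p = 1 := by rw [← map_pow, hf, map_one]
  by_contra hne
  -- scalars
  have scalar_of : ∀ M : Module.End k W, (∀ y ∈ Q, ρ y * M = M * ρ y) → ρ f * M = M * ρ f →
      ∃ c : k, M = c • 1 := fun M h1 h2 =>
    exists_scalar_of_commute (insert (ρ f) (ρ '' (Q : Set Γ)))
      (fun U hU => hirr U (fun y hy => hU _ (Set.mem_insert_of_mem _ ⟨y, hy, rfl⟩))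
        (hU _ (Set.mem_insert _ _)))
      (by rintro T (rfl | ⟨y, hy, rfl⟩); exacts [h2, h1 y hy])
  let S : Subalgebra k (Module.End k W) := Algebra.adjoin k (ρ '' (Q : Set Γ))
  have hρS : ∀ y ∈ Q, ρ y ∈ S := fun y hy => Algebra.subset_adjoin ⟨y, hy, rfl⟩
  have hScomm : ∀ M : Module.End k W, (∀ y ∈ Q, ρ y * M = M * ρ y) → ∀ T ∈ S, T * M = M * T := by
    intro M hM T hT
    induction hT using Algebra.adjoin_induction with
    | mem x hx => obtain ⟨y, hy, rfl⟩ := hx; exact hM y hy
    | algebraMap c => exact Algebra.commutes c M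
    | add x y _ _ hx hy => rw [add_mul, mul_add, hx, hy]
    | mul x y _ _ hx hy => rw [mul_assoc, hy, ← mul_assoc, hx, mul_assoc]
  -- `ρ f` lies in the algebra generated by `Q`
  have := Fintype.ofFinite Q
  let C : ℕ → Module.End k W := fun i => ∑ x : Q, ρ ((x : Γ) * f ^ i * (x : Γ)⁻¹)
  have hfpow : ∀ (x : Γ) (i : ℕ), ρ (x * f ^ i * x⁻¹) = ρ x * ρ f ^ i * ρ x⁻¹ := fun x i => by
    rw [map_mul, map_mul, map_pow]
  have hCsum : ∑ i ∈ Finset.range p, C i = 0 := by
    rw [Finset.sum_comm]
    refine Finset.sum_eq_zero fun x _ => ?_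
    rw [Finset.sum_congr rfl fun i _ => hfpow x i, ← Finset.sum_mul, ← Finset.mul_sum, hsum, mul_zero,
      zero_mul]
  have hC0 : C 0 = (Fintype.card Q : k) • 1 := by
    simp [C, ← map_mul, Nat.cast_smul_eq_nsmul]
  have hCQ : ∀ i, ∀ y ∈ Q, ρ y * C i = C i * ρ y := by
    intro i y hy
    simp only [C, Finset.mul_sum, Finset.sum_mul, ← map_mul]
    refine Fintype.sum_equiv (Equiv.mulLeft (⟨y, hy⟩ : Q)) _ _ fun x => ?_
    congr 1
    simp [mul_assoc]
  have hCf : ∀ i, ρ f * C i = C i * ρ f := by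
    intro i
    simp only [C, Finset.mul_sum, Finset.sum_mul, ← map_mul]
    let φ : Q ≃ Q :=
      { toFun := fun x => ⟨f * x * f⁻¹, (mem_normalizer_iff.mp hfQ _).mp x.2⟩
        invFun := fun x => ⟨f⁻¹ * x * f, (mem_normalizer_iff'.mp hfQ _).mpr (by simp [mul_assoc])⟩
        left_inv := fun x => Subtype.ext (by simp [mul_assoc])
        right_inv := fun x => Subtype.ext (by simp [mul_assoc]) }
    refine Fintype.sum_equiv φ _ _ fun x => ?_
    congr 1
    simp only [φ, Equiv.coe_fn_mk]
    have hc : Commute f (f ^ i) := (Commute.refl f).pow_right i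
    calc f * ((x : Γ) * f ^ i * (x : Γ)⁻¹) = f * x * f⁻¹ * (f * f ^ i) * (x : Γ)⁻¹ := by group
      _ = f * x * f⁻¹ * (f ^ i * f) * (x : Γ)⁻¹ := by rw [hc.eq]
      _ = f * x * f⁻¹ * f ^ i * (f * x * f⁻¹)⁻¹ * f := by group
  have hc : ∀ i, ∃ c : k, C i = c • 1 := fun i => scalar_of _ (hCQ i) (hCf i)
  choose c hc using hc
  have hQcard : (Fintype.card Q : k) ≠ 0 := by
    obtain ⟨j, hj⟩ := IsPGroup.iff_card.mp hQ
    rw [Nat.card_eq_fintype_card] at hj
    rw [hj, Nat.cast_pow]
    exact pow_ne_zero _ hq0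
  have h1ne : (1 : Module.End k W) ≠ 0 := one_ne_zero
  obtain ⟨i, hi, hi0, hci⟩ : ∃ i ∈ Finset.range p, i ≠ 0 ∧ c i ≠ 0 := by
    by_contra! h
    rw [Finset.sum_eq_single_of_mem 0 (Finset.mem_range.mpr hp.pos) (fun i hi hi0 => by
      rw [hc i, h i hi hi0, zero_smul]), hC0] at hCsum
    exact (smul_ne_zero hQcard h1ne) hCsum
  have hfS : ρ f ∈ S := by
    let A : Module.End k W := ∑ x : Q, ρ ((x : Γ) * (f ^ i * (x : Γ)⁻¹ * (f ^ i)⁻¹))
    have hAS : A ∈ S := sum_mem fun x _ =>
      hρS _ (mul_mem x.2 ((mem_normalizer_iff.mp (pow_mem hfQ i) _).mp (inv_mem x.2)))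
    have hAf : A * ρ f ^ i = c i • 1 := by
      rw [← hc i]
      simp only [A, C, Finset.sum_mul, ← map_pow, ← map_mul]
      refine Finset.sum_congr rfl fun x _ => ?_
      congr 1; group
    have hAf' : (c i)⁻¹ • A * ρ f ^ i = 1 := by
      rw [smul_mul_assoc, hAf, smul_smul, inv_mul_cancel₀ hci, one_smul]
    have hpow : ρ f ^ (p - i) ∈ S := by
      have h2 : ρ f ^ (p - i) = (c i)⁻¹ • A := by
        calc ρ f ^ (p - i) = ((c i)⁻¹ • A * ρ f ^ i) * ρ f ^ (p - i) := by rw [hAf', one_mul]
          _ = (c i)⁻¹ • A := by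
            rw [mul_assoc, ← pow_add, Nat.add_sub_cancel' (Finset.mem_range.mp hi).le, hρf, mul_one]
      rw [h2]; exact S.smul_mem hAS _
    have hip := Finset.mem_range.mp hi
    obtain ⟨m, -, hm⟩ := Nat.exists_mul_mod_eq_one_of_coprime
      ((Nat.coprime_of_lt_prime (show p - i ≠ 0 by omega) (show p - i < p by omega) hp).symm)
      hp.one_lt
    have h3 := pow_mem hpow m
    rwa [← pow_mul, pow_eq_pow_mod _ hρf, hm, pow_one] at h3
  have hStop : S = ⊤ := subalgebra_eq_top S fun U hU => hirr U (fun y hy => hU _ (hρS y hy)) (hU _ hfS)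
  -- elements acting as scalars
  let Z : Subgroup Γ :=
    { carrier := {z | z ∈ Q ∧ ∃ d : k, ρ z = d • 1}
      one_mem' := ⟨one_mem Q, 1, by rw [map_one, one_smul]⟩
      mul_mem' := fun {a b} ha hb => ⟨mul_mem ha.1 hb.1, by
        obtain ⟨d, hd⟩ := ha.2
        obtain ⟨d', hd'⟩ := hb.2
        exact ⟨d * d', by rw [map_mul, hd, hd', smul_mul_smul_comm, one_mul]⟩⟩
      inv_mem' := fun {a} ha => ⟨inv_mem ha.1, by
        obtain ⟨d, hd⟩ := ha.2
        refine ⟨d⁻¹, ?_⟩
        have h2 : ρ a⁻¹ * ρ a = 1 := by rw [← map_mul, inv_mul_cancel, map_one]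
        rw [hd, mul_smul_comm, mul_one] at h2
        have hd0 : d ≠ 0 := fun h => by rw [h, zero_smul] at h2; exact h1ne h2.symm
        rw [← h2, smul_smul, inv_mul_cancel₀ hd0, one_smul]⟩ }
  have hZcent : ∀ z ∈ Z, ∀ g : Γ, z * g = g * z := fun z ⟨_, d, hd⟩ g => hinj (by
    rw [map_mul, map_mul, hd, smul_mul_assoc, mul_smul_comm, one_mul, mul_one])
  have hZof : ∀ U : Subgroup Γ, U ≤ Q → U ≠ Q → f ∈ normalizer (U : Set Γ) →
      (∀ u ∈ U, ∀ y ∈ Q, y * u = u * y) → U ≤ Z := by
    intro U hU hne' hfU hcen u hu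
    refine ⟨hU hu, scalar_of _ (fun y hy => ?_) ?_⟩
    · rw [← map_mul, hcen u hu y hy, map_mul]
    · rw [← map_mul, hsmall U hU hne' hfU u hu, map_mul]
  -- `Q = [Q, f]`
  let A : Subgroup Γ := zpowers f
  have hAQ : A ≤ normalizer (Q : Set Γ) := zpowers_le.mpr hfQ
  have hS_all : ∀ M : Module.End k W, (∀ y ∈ Q, ρ y * M = M * ρ y) → ρ f * M = M * ρ f :=
    fun M hM => hScomm M hM _ hfS
  have hcopQA : (Nat.card A).Coprime (Nat.card Q) := by
    obtain ⟨j, hj⟩ := IsPGroup.iff_card.mp hQ
    rw [Nat.card_zpowers, hj]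
    refine Nat.Coprime.pow_right j ((hp.coprime_iff_not_dvd.mpr fun h => hqp
      ((Nat.prime_dvd_prime_iff_eq hp hq).mp h).symm).coprime_dvd_left (orderOf_dvd_of_pow_eq_one hf))
  have hQs : Group.IsSolvable Q := by haveI := hQ.isNilpotent; infer_instance
  have hfull : ⁅Q, A⁆ = Q := by
    by_contra hne'
    have hle : ⁅Q, A⁆ ≤ Q := commutator_le_of_le_normalizer' hAQ
    have hn : f ∈ normalizer ((⁅Q, A⁆ : Subgroup Γ) : Set Γ) :=
      right_le_normalizer_commutator Q A (mem_zpowers f)
    have h1 : ⁅⁅Q, A⁆, A⁆ = ⊥ := by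
      rw [commutator_eq_bot_iff_le_centralizer]
      intro u hu
      refine mem_centralizer_iff.mpr fun a ha => ?_
      obtain ⟨j, rfl⟩ := mem_zpowers_iff.mp ha
      exact (Commute.zpow_left (hsmall _ hle hne' hn u hu : Commute f u) j).eq
    rw [commutator_commutator hAQ hcopQA (Or.inr hQs), commutator_eq_bot_iff_le_centralizer] at h1
    exact hne fun y hy => mem_centralizer_iff.mp (h1 hy) f (mem_zpowers f)
  let U : Subgroup Γ := Q ⊓ centralizer (Q : Set Γ)
  have hUQ : U ≠ Q := by
    intro h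
    refine hne fun y hy => hinj ?_
    rw [map_mul, map_mul]
    refine hS_all _ fun z hz => ?_
    have hy' : y ∈ centralizer (Q : Set Γ) := ((h.symm ▸ hy : y ∈ U)).2
    rw [← map_mul, mem_centralizer_iff.mp hy' z hz, map_mul]
  have hUf : f ∈ normalizer (U : Set Γ) := by
    refine mem_normalizer_of_conj_smul_eq ?_
    rw [conj_smul_inf, conj_smul_eq_self hfQ, conj_smul_eq_self (normalizer_le_normalizer_centralizer Q hfQ)]
  have hUZ : U ≤ Z :=
    hZof U inf_le_left hUQ hUf fun u hu y hy => mem_centralizer_iff.mp hu.2 y hy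
  let F : Subgroup Γ := (frattini Q).map Q.subtype
  have hFQ : F ≤ Q := map_subtype_le _
  have hFne : F ≠ Q := by
    intro h
    have htop : frattini Q = ⊤ := map_injective Q.subtype_injective
      (h.trans (by rw [← MonoidHom.range_eq_map, range_subtype]))
    have : Nontrivial Q := (nontrivial_iff_ne_bot Q).mpr fun h' => hne fun y hy => by
      rw [h', mem_bot] at hy; rw [hy, mul_one, one_mul]
    obtain ⟨M, hM, -⟩ := (eq_top_or_exists_le_coatom (⊥ : Subgroup Q)).resolve_left bot_ne_top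
    exact hM.1 (top_le_iff.mp (htop ▸ frattini_le_coatom hM))
  have hFf : f ∈ normalizer (F : Set Γ) := normalizer_le_normalizer_map_frattini Q hfQ
  have hFA : ⁅F, A⁆ = ⊥ := by
    rw [commutator_eq_bot_iff_le_centralizer]
    intro u hu
    refine mem_centralizer_iff.mpr fun a ha => ?_
    obtain ⟨j, rfl⟩ := mem_zpowers_iff.mp ha
    exact (Commute.zpow_left (hsmall F hFQ hFne hFf u hu : Commute f u) j).eq
  have hFZ : F ≤ Z := by
    refine hZof F hFQ hFne hFf ?_
    have hQF : ⁅F, Q⁆ ≤ F :=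
      commutator_le_of_le_normalizer' (le_normalizer.trans (normalizer_le_normalizer_map_frattini Q))
    have h1 : ⁅⁅F, Q⁆, A⁆ = ⊥ := eq_bot_iff.mpr ((commutator_mono hQF le_rfl).trans hFA.le)
    have h2 : ⁅⁅A, F⁆, Q⁆ = ⊥ := by rw [commutator_comm A F, hFA, commutator_bot_left]
    have h3 := commutator_commutator_eq_bot_of_rotate (H₁ := Q) (H₂ := A) (H₃ := F) h2 h1
    rw [hfull] at h3
    exact fun e he y hy => commutatorElement_eq_one_iff_mul_comm.mp
      (mem_bot.mp (h3 ▸ commutator_mem_commutator hy he))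
  -- the quotient by the scalars
  let Z' : Subgroup Q := Z.subgroupOf Q
  have hZ'n : Z'.Normal := ⟨fun z hz g => by
    show ((g * z * g⁻¹ : Q) : Γ) ∈ Z
    show (g : Γ) * (z : Γ) * (g : Γ)⁻¹ ∈ Z
    rw [← hZcent (z : Γ) hz (g : Γ), mul_inv_cancel_right]
    exact hz⟩
  have hcommZ : ∀ a b : Q, ⁅a, b⁆ ∈ Z' := fun a b =>
    hFZ (mem_map_of_mem Q.subtype (PGroupFrattini.commutator_le_frattini hQ
      (commutator_mem_commutator (mem_top a) (mem_top b))))
  let _ : CommGroup (Q ⧸ Z') :=
    { (inferInstance : Group (Q ⧸ Z')) with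
      mul_comm := fun x y => by
        obtain ⟨a, rfl⟩ := QuotientGroup.mk'_surjective Z' x
        obtain ⟨b, rfl⟩ := QuotientGroup.mk'_surjective Z' y
        rw [← commutatorElement_eq_one_iff_mul_comm, ← map_commutatorElement]
        exact (QuotientGroup.eq_one_iff _).mpr (hcommZ a b) }
  let α : MulAut Q := Q.normalizerMonoidHom ⟨f, hfQ⟩
  have hαZ : Z'.map (α : Q →* Q) = Z' := by
    have h1 : ∀ y : Q, y ∈ Z' → α y = y := fun y hy => Subtype.ext (by
      show f * (y : Γ) * f⁻¹ = y
      rw [← hZcent (y : Γ) hy f, mul_inv_cancel_right])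
    ext y
    constructor
    · rintro ⟨z, hz, rfl⟩
      show α z ∈ Z'
      rw [h1 z hz]; exact hz
    · exact fun hy => ⟨y, hy, h1 y hy⟩
  let σ : MulAut (Q ⧸ Z') := QuotientGroup.congr Z' Z' α hαZ
  have hσmk : ∀ (i : ℕ) (y : Q), (σ ^ i) (QuotientGroup.mk' Z' y) = QuotientGroup.mk' Z' ((α ^ i) y) := by
    intro i
    induction i with
    | zero => intro y; rfl
    | succ i ih => intro y; rw [pow_succ', MulAut.mul_apply, ih, pow_succ', MulAut.mul_apply]; rfl
  have hαp : α ^ p = 1 := by
    show (Q.normalizerMonoidHom ⟨f, hfQ⟩) ^ p = 1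
    rw [← map_pow, show (⟨f, hfQ⟩ : normalizer (Q : Set Γ)) ^ p = 1 from Subtype.ext hf, map_one]
  have hσp : ∀ x, (σ ^ p) x = x := fun x => by
    obtain ⟨y, rfl⟩ := QuotientGroup.mk'_surjective Z' x
    rw [hσmk, hαp]; rfl
  -- no fixed points
  let ν : (Q ⧸ Z') →* (Q ⧸ Z') :=
    { toFun := fun x => ∏ i ∈ Finset.range p, (σ ^ i) x
      map_one' := by simp
      map_mul' := fun x y => by simp [Finset.prod_mul_distrib] }
  have hνσ : ∀ x, ν (σ x) = ν x := fun x => by
    show ∏ i ∈ Finset.range p, (σ ^ i) (σ x) = ∏ i ∈ Finset.range p, (σ ^ i) x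
    simp only [← MulAut.mul_apply, ← pow_succ]
    exact sum_inv_mul_cancel (f := fun i => (σ ^ i) x) (by rw [hσp]; rfl)
  have hνσi : ∀ (i : ℕ) x, ν ((σ ^ i) x) = ν x := fun i => by
    induction i with
    | zero => intro x; rfl
    | succ i ih => intro x; rw [pow_succ', MulAut.mul_apply, hνσ, ih]
  have hν : ∀ y : Q, ν (QuotientGroup.mk' Z' y) = 1 := by
    let Kν : Subgroup Γ := (ν.comp (QuotientGroup.mk' Z')).ker.map Q.subtype
    have hle : ⁅Q, A⁆ ≤ Kν := by
      rw [commutator_le]
      intro y hy a ha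
      have hfin : IsOfFinOrder f := isOfFinOrder_of_finite f
      obtain ⟨i, rfl⟩ := (Submonoid.mem_powers_iff a f).mp (hfin.mem_powers_iff_mem_zpowers.mpr ha)
      let y' : Q := ⟨y, hy⟩
      refine ⟨y' * ((α ^ i) y')⁻¹, ?_, ?_⟩
      · rw [SetLike.mem_coe, MonoidHom.mem_ker, MonoidHom.comp_apply, map_mul, map_inv, ← hσmk,
          map_mul, map_inv, hνσi, mul_inv_cancel]
      · have : (((α ^ i) y' : Q) : Γ) = f ^ i * y * (f ^ i)⁻¹ := by
          clear ha
          induction i with
          | zero => simp [y']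
          | succ i ih =>
            rw [pow_succ' α, MulAut.mul_apply]
            show f * (((α ^ i) y' : Q) : Γ) * f⁻¹ = _
            rw [ih, pow_succ']; group
        simp only [map_mul, map_inv, coe_subtype, this, y', commutatorElement_def]
        group
    intro y
    obtain ⟨z, hz, hzy⟩ := hle (hfull.symm ▸ y.2 : (y : Γ) ∈ ⁅Q, A⁆)
    rw [← Q.subtype_injective hzy]
    exact hz
  have hfree : ∀ x, σ x = x → x = 1 := by
    intro x hx
    have h1 : ν x = x ^ p := by
      show ∏ i ∈ Finset.range p, (σ ^ i) x = x ^ p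
      have : ∀ i : ℕ, (σ ^ i) x = x := fun i => by
        induction i with
        | zero => rfl
        | succ i ih => rw [pow_succ', MulAut.mul_apply, ih, hx]
      simp [this]
    obtain ⟨y, rfl⟩ := QuotientGroup.mk'_surjective Z' x
    rw [hν y] at h1
    obtain ⟨j, hj⟩ := hQ y
    refine orderOf_eq_one_iff.mp (Nat.eq_one_of_dvd_coprimes
      (Nat.Coprime.pow_right j ((Nat.coprime_primes hp hq).mpr hqp.symm))
      (orderOf_dvd_of_pow_eq_one h1.symm) (orderOf_dvd_of_pow_eq_one (by rw [← map_pow, hj, map_one])))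
  -- the operators indexed by the quotient
  let T : Q ⧸ Z' → Module.End k W := fun x => ρ ((x.out : Q) : Γ)
  have hTmk : ∀ y : Q, ∃ d : k, ρ (y : Γ) = d • T (QuotientGroup.mk' Z' y) := by
    intro y
    let o : Q := (QuotientGroup.mk' Z' y).out
    have h1 : o⁻¹ * y ∈ Z' := QuotientGroup.eq.mp ((QuotientGroup.mk' Z' y).out_eq)
    obtain ⟨-, d, hd⟩ := h1
    refine ⟨d, ?_⟩
    calc ρ (y : Γ) = ρ (o : Γ) * ρ ((o⁻¹ * y : Q) : Γ) := by rw [← map_mul]; congr 1; simp
      _ = d • T (QuotientGroup.mk' Z' y) := by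
        rw [show ρ ((o⁻¹ * y : Q) : Γ) = d • 1 from hd, mul_smul_comm, mul_one]
  have hspan : Submodule.span k (Set.range T) = ⊤ := by
    have h1 : ∀ M ∈ S, M ∈ Submodule.span k (ρ '' (Q : Set Γ)) := by
      intro M hM
      induction hM using Algebra.adjoin_induction with
      | mem x hx => exact Submodule.subset_span hx
      | algebraMap c =>
        rw [Algebra.algebraMap_eq_smul_one, ← map_one ρ]
        exact Submodule.smul_mem _ _ (Submodule.subset_span ⟨1, Q.one_mem, rfl⟩)
      | add x y _ _ hx hy => exact add_mem hx hy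
      | mul x y _ _ hx hy =>
        have h2 := Submodule.mul_mem_mul hx hy
        rw [Submodule.span_mul_span] at h2
        refine Submodule.span_mono ?_ h2
        rintro _ ⟨_, ⟨a, ha, rfl⟩, _, ⟨b, hb, rfl⟩, rfl⟩
        exact ⟨a * b, Q.mul_mem ha hb, map_mul ρ a b⟩
    refine eq_top_iff.mpr fun M _ => Submodule.span_le.mpr ?_ (h1 M (hStop ▸ Algebra.mem_top))
    rintro _ ⟨y, hy, rfl⟩
    obtain ⟨d, hd⟩ := hTmk ⟨y, hy⟩
    rw [hd]
    exact Submodule.smul_mem _ _ (Submodule.subset_span ⟨_, rfl⟩)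
  have hTne : ∀ x, T x ≠ 0 := fun x h => by
    have h2 : T x * ρ ((x.out : Q) : Γ)⁻¹ = 1 := by rw [← map_mul, mul_inv_cancel, map_one]
    rw [h, zero_mul] at h2; exact h1ne h2.symm
  have hχ : ∀ (x : Q ⧸ Z') (y : Q), ∃ d : k, ρ (y : Γ) * T x = d • (T x * ρ (y : Γ)) := by
    intro x y
    obtain ⟨-, d, hd⟩ := hcommZ y x.out
    refine ⟨d, ?_⟩
    calc ρ (y : Γ) * T x = ρ ((⁅y, x.out⁆ : Q) : Γ) * (T x * ρ (y : Γ)) := by
          rw [← map_mul, ← map_mul, ← map_mul]; congr 1; simp [commutatorElement_def, mul_assoc]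
      _ = d • (T x * ρ (y : Γ)) := by
        rw [show ρ ((⁅y, x.out⁆ : Q) : Γ) = d • 1 from hd, smul_mul_assoc, one_mul]
  choose χ hχ using hχ
  have hTy : ∀ (x : Q ⧸ Z') (y : Q), T x * ρ (y : Γ) ≠ 0 := fun x y h => by
    have h2 : T x * ρ (y : Γ) * ρ (y : Γ)⁻¹ = T x := by
      rw [mul_assoc, ← map_mul, mul_inv_cancel, map_one, mul_one]
    rw [h, zero_mul] at h2; exact hTne x h2.symm
  let χh : Q ⧸ Z' → (Q →* k) := fun x =>
    { toFun := χ x
      map_one' := by
        have h2 := hχ x 1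
        rw [OneMemClass.coe_one, map_one, one_mul, mul_one] at h2
        exact (smul_left_injective k (hTne x) ((one_smul k (T x)).trans h2)).symm
      map_mul' := fun a b => by
        refine smul_left_injective k (hTy x (a * b)) ?_
        show χ x (a * b) • (T x * ρ ((a * b : Q) : Γ)) = (χ x a * χ x b) • (T x * ρ ((a * b : Q) : Γ))
        rw [← hχ, Subgroup.coe_mul, map_mul, mul_assoc, hχ x b, mul_smul_comm, ← mul_assoc, hχ x a,
          smul_mul_assoc, smul_smul, mul_comm, mul_assoc] }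
  have hχinj : Function.Injective χh := by
    intro x x' h
    have hcz : ∀ y : Q, ρ (y : Γ) * ρ ((x.out : Q) * ((x'.out : Q))⁻¹ : Γ) =
        ρ ((x.out : Q) * ((x'.out : Q))⁻¹ : Γ) * ρ (y : Γ) := by
      intro y
      have e : χ x y = χ x' y := DFunLike.congr_fun h y
      have hx' := hχ x' y
      have h2 : ρ (y : Γ) * T x * ρ ((x'.out : Q) : Γ)⁻¹ = T x * ρ ((x'.out : Q) : Γ)⁻¹ * ρ (y : Γ) := by
        rw [hχ x y, e]
        calc χ x' y • (T x * ρ (y : Γ)) * ρ ((x'.out : Q) : Γ)⁻¹
            = T x * ρ ((x'.out : Q) : Γ)⁻¹ * (χ x' y • (T x' * ρ (y : Γ))) * ρ ((x'.out : Q) : Γ)⁻¹ := by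
              simp only [smul_mul_assoc, mul_smul_comm]
              congr 1
              simp only [T, ← map_mul]
              congr 1; group
          _ = _ := by
              rw [← hx']
              simp only [T, ← map_mul]
              congr 1; group
      rw [map_mul, mul_assoc] at *
      rw [← mul_assoc]; exact h2
    have hmem : x.out * x'.out⁻¹ ∈ Z' := hUZ ⟨(x.out * x'.out⁻¹).2, mem_centralizer_iff.mpr fun y hy =>
      hinj ((map_mul ρ _ _).trans ((hcz ⟨y, hy⟩).trans (map_mul ρ _ _).symm))⟩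
    have h3 := (QuotientGroup.eq_one_iff _).mpr hmem
    rw [QuotientGroup.mk_mul, QuotientGroup.mk_inv, QuotientGroup.out_eq', QuotientGroup.out_eq',
      mul_inv_eq_one] at h3
    exact h3
  have := Fintype.ofFinite (Q ⧸ Z')
  have hli : LinearIndependent k T := by
    rw [Fintype.linearIndependent_iff]
    intro a ha x
    have key : ∀ y : Q, ∑ z, (a z * χ z y) • T z = 0 := fun y => by
      have h2 : ρ (y : Γ) * (∑ z, a z • T z) * ρ (y : Γ)⁻¹ = 0 := by rw [ha, mul_zero, zero_mul]
      rw [Finset.mul_sum, Finset.sum_mul] at h2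
      refine Eq.trans (Finset.sum_congr rfl fun z _ => ?_) h2
      rw [mul_smul_comm, hχ, smul_smul, smul_mul_assoc, mul_assoc, ← map_mul, mul_inv_cancel, map_one,
        mul_one]
    by_contra hax
    apply hTne x
    by_contra hTx
    obtain ⟨L, hL⟩ : ∃ L : Module.End k W →ₗ[k] k, L (T x) ≠ 0 := by
      by_contra! hL
      exact hTx ((Module.forall_dual_apply_eq_zero_iff k (T x)).mp hL)
    have h3 : ∑ z, (a z * L (T z)) • (χh z : Q → k) = 0 := funext fun y => by
      have h4 := congrArg L (key y)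
      simp only [map_sum, map_smul, map_zero, smul_eq_mul] at h4
      simp only [Finset.sum_apply, Pi.smul_apply, smul_eq_mul, Pi.zero_apply]
      refine Eq.trans (Finset.sum_congr rfl fun z _ => ?_) h4
      show a z * L (T z) * χ z y = a z * χ z y * L (T z)
      ring
    have h5 := Fintype.linearIndependent_iff.mp
      ((linearIndependent_monoidHom Q k).comp χh hχinj) _ h3 x
    exact (mul_ne_zero hax hL) h5
  have hN : Fintype.card (Q ⧸ Z') = Module.finrank k (Module.End k W) := by
    refine le_antisymm hli.fintype_card_le_finrank ?_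
    have := finrank_range_le_card (R := k) T
    rwa [Set.finrank, hspan, finrank_top] at this
  -- counting
  have hFG : ρ f⁻¹ * ρ f = 1 := by rw [← map_mul, inv_mul_cancel, map_one]
  have hTσ : ∀ x, ∃ d : k, ρ f * T x * ρ f⁻¹ = d • T ((σ : Q ⧸ Z' ≃ Q ⧸ Z') x) := by
    intro x
    obtain ⟨d, hd⟩ := hTmk (α x.out)
    refine ⟨d, ?_⟩
    have e : (σ : Q ⧸ Z' ≃ Q ⧸ Z') x = QuotientGroup.mk' Z' (α x.out) := by
      conv_lhs => rw [← QuotientGroup.out_eq' x]
      rfl
    rw [e, ← hd, ← map_mul, ← map_mul]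
    rfl
  have hσperm : ∀ i : ℕ, ∀ x, (((σ : Q ⧸ Z' ≃ Q ⧸ Z') : Equiv.Perm (Q ⧸ Z')) ^ i) x = (σ ^ i) x := by
    intro i
    induction i with
    | zero => intro x; rfl
    | succ i ih => intro x; rw [pow_succ', Equiv.Perm.mul_apply, ih, pow_succ', MulAut.mul_apply]; rfl
  have hcount := mul_finrank_centralizer_le hp hp0 hFG hρf (σ : Q ⧸ Z' ≃ Q ⧸ Z') 1
    (Equiv.ext fun x => (hσperm p x).trans (hσp x)) hfree (map_one σ) T hTσ hspan
  have hlarge := sq_le_mul_finrank_centralizer hp0 hρf hsum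
  rw [hN] at hcount
  rw [Module.finrank_linearMap, ← sq] at hcount hN
  set n := Module.finrank k W with hn
  set c' := Module.finrank k (Subalgebra.centralizer k ({ρ f} : Set (Module.End k W))) with hc'
  have hn1 : 1 ≤ n := Module.finrank_pos
  have hNpow : ∃ j, n ^ 2 = q ^ j := by
    obtain ⟨j, hj⟩ := IsPGroup.iff_card.mp (hQ.to_quotient Z')
    exact ⟨j, by rw [← hN, ← Nat.card_eq_fintype_card]; exact hj⟩
  have hmodp : (Fintype.card (Q ⧸ Z')) ≡ 1 [MOD p] := by
    have hpg : IsPGroup p (zpowers σ) := by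
      intro g
      obtain ⟨g, hg⟩ := g
      obtain ⟨j, rfl⟩ := mem_zpowers_iff.mp hg
      refine ⟨1, Subtype.ext ?_⟩
      have hσ1 : σ ^ p = 1 := MulEquiv.ext hσp
      rw [pow_one, SubmonoidClass.coe_pow, ← zpow_natCast, ← zpow_mul, mul_comm, zpow_mul, zpow_natCast,
        hσ1, one_zpow]
      rfl
    have hfix : Nat.card (MulAction.fixedPoints (zpowers σ) (Q ⧸ Z')) = 1 := by
      have hs : MulAction.fixedPoints (zpowers σ) (Q ⧸ Z') = {1} :=
        Set.ext fun x => ⟨fun hx => hfree x (hx ⟨σ, mem_zpowers σ⟩), fun hx g => by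
          rw [Set.mem_singleton_iff.mp hx]; exact map_one (g : MulAut (Q ⧸ Z'))⟩
      rw [hs, Nat.card_coe_set_eq, Set.ncard_singleton]
    haveI := Fact.mk hp
    have h2 := hpg.card_modEq_card_fixedPoints (Q ⧸ Z')
    rwa [hfix, Nat.card_eq_fintype_card] at h2
  rw [hN] at hmodp
  have hp2 := hp.two_le
  have hbound : n ≤ p - 1 := by
    by_contra hlt
    obtain ⟨d, rfl⟩ : ∃ d, p = d + 2 := ⟨p - 2, by omega⟩
    simp only [show d + 2 - 1 = d + 1 from rfl] at hlarge hlt
    have h1 : (d + 2) * n ^ 2 ≤ (d + 1) * ((d + 2) * c') := by nlinarith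
    have h2 : (d + 1) * ((d + 2) * c') ≤ (d + 1) * (n ^ 2 - 1 + (d + 2)) := Nat.mul_le_mul_left _ hcount
    have h3 : (d + 2) * (d + 2) ≤ n ^ 2 := by nlinarith
    obtain ⟨M, hM⟩ : ∃ M, n ^ 2 = M + 1 :=
      ⟨n ^ 2 - 1, (Nat.sub_add_cancel (Nat.one_le_pow 2 n hn1)).symm⟩
    rw [hM, Nat.add_sub_cancel] at h2
    nlinarith
  have hdvd : p ∣ (n - 1) * (n + 1) := by
    have h1 := (Nat.modEq_iff_dvd' (Nat.one_le_pow _ _ hn1)).mp hmodp.symm
    rwa [mul_comm, ← Nat.sq_sub_sq, one_pow]
  rcases hp.dvd_mul.mp hdvd with h | h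
  · -- one-dimensional: `Q` is central
    have hn0 : n = 1 := by
      rcases Nat.eq_zero_or_pos (n - 1) with h' | h'
      · omega
      · have := Nat.le_of_dvd h' h; omega
    rw [hn0, one_pow] at hN
    have hall : ∀ y : Q, y ∈ Z' := fun y => (QuotientGroup.eq_one_iff y).mp
      ((Fintype.card_le_one_iff.mp hN.le) _ _)
    exact hUQ (le_antisymm inf_le_left fun y hy => ⟨hy, mem_centralizer_iff.mpr fun z _ =>
      (hZcent y (hall ⟨y, hy⟩) z).symm⟩)
  · have hnp : n + 1 = p := by
      have := Nat.le_of_dvd (by omega) h; omega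
    obtain ⟨j, hj⟩ := hNpow
    obtain ⟨m, -, hm⟩ := (Nat.dvd_prime_pow hq).mp (hj ▸ dvd_pow_self n two_ne_zero : n ∣ q ^ j)
    rcases hex with hq2 | hferm
    · have hodd : n % 2 = 1 := by
        simp [hm, Nat.pow_mod, Nat.odd_iff.mp (hq.odd_of_ne_two hq2)]
      rcases hp.eq_two_or_odd with h2 | h2
      · have hn0 : n = 1 := by omega
        rw [hn0, one_pow] at hN
        have hall : ∀ y : Q, y ∈ Z' := fun y => (QuotientGroup.eq_one_iff y).mp
          ((Fintype.card_le_one_iff.mp hN.le) _ _)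
        exact hUQ (le_antisymm inf_le_left fun y hy => ⟨hy, mem_centralizer_iff.mpr fun z _ =>
          (hZcent y (hall ⟨y, hy⟩) z).symm⟩)
      · omega
    · by_cases hq2 : q = 2
      · exact hferm ⟨m, by rw [← hq2, ← hm, hnp]⟩
      · have hodd : n % 2 = 1 := by
          simp [hm, Nat.pow_mod, Nat.odd_iff.mp (hq.odd_of_ne_two hq2)]
        rcases hp.eq_two_or_odd with h2 | h2
        · exact hferm ⟨0, by omega⟩
        · omega

end main

section general

variable {p q : ℕ}

/-- The finite stabiliser of a submodule. -/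
def stabilizerSubgroup {k : Type*} [Field k] {W : Type*} [AddCommGroup W] [Module k W] {Γ : Type*}
    [Group Γ] [Finite Γ] (ρ : Γ →* Module.End k W) (U : Submodule k W) : Subgroup Γ :=
  let M : Submonoid Γ :=
    { carrier := {g | ∀ u ∈ U, ρ g u ∈ U}
      one_mem' := fun u hu => by simpa using hu
      mul_mem' := fun {a b} ha hb u hu => by rw [map_mul]; exact ha _ (hb u hu) }
  { M with
    inv_mem' := fun {g} hg => by
      have h1 : g⁻¹ = g ^ (orderOf g - 1) := by
        rw [inv_eq_iff_mul_eq_one, ← pow_succ', Nat.sub_add_cancel (orderOf_pos g), pow_orderOf_eq_one]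
      rw [h1]
      exact M.pow_mem (show g ∈ M from hg) _ }

theorem sq_zero_eq_one {k : Type*} [Field k] {R : Type*} [Ring R] [Algebra k R] {N : R} (hN : N * N = 0)
    {m : ℕ} (hm : (m : k) ≠ 0) (h : (1 + N) ^ m = 1) : N = 0 := by
  have key : ∀ i : ℕ, (1 + N) ^ i = 1 + i • N := fun i => by
    induction i with
    | zero => simp
    | succ i ih => rw [pow_succ, ih, add_mul, one_mul, smul_mul_assoc, mul_add, hN, mul_one, add_zero,
        succ_nsmul]; abel
  rw [key, add_eq_left, ← Nat.cast_smul_eq_nsmul k] at h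
  exact (smul_eq_zero.mp h).resolve_left hm

theorem commute_all_aux (hp : p.Prime) (hq : q.Prime) (hqp : q ≠ p) (hex : NotException p q)
    {k : Type v} [Field k] [IsAlgClosed k] (hp0 : (p : k) ≠ 0) (hq0 : (q : k) ≠ 0) :
    ∀ (n : ℕ) (W : Type w) [AddCommGroup W] [Module k W] [FiniteDimensional k W],
      Module.finrank k W ≤ n → ∀ (Γ : Type w) [Group Γ] [Finite Γ] (ρ : Γ →* Module.End k W),
      Function.Injective ρ → ∀ (Q : Subgroup Γ), IsPGroup q Q → ∀ f : Γ, f ∈ normalizer (Q : Set Γ) →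
      f ^ p = 1 → ∑ i ∈ Finset.range p, ρ f ^ i = 0 → ∀ y ∈ Q, f * y = y * f := by
  intro n
  induction n with
  | zero =>
    intro W _ _ _ hn Γ _ _ ρ hinj Q _ f _ _ _ y _
    have : Subsingleton W := Module.finrank_zero_iff.mp (Nat.le_zero.mp hn)
    exact hinj (Subsingleton.elim _ _)
  | succ n ihn =>
    intro W _ _ _ hn Γ _ _ ρ hinj
    suffices H : ∀ (c : ℕ) (Q : Subgroup Γ), Nat.card Q ≤ c → IsPGroup q Q → ∀ f : Γ,
        f ∈ normalizer (Q : Set Γ) → f ^ p = 1 → ∑ i ∈ Finset.range p, ρ f ^ i = 0 →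
        ∀ y ∈ Q, f * y = y * f from fun Q hQ => H _ Q le_rfl hQ
    intro c
    induction c with
    | zero => exact fun Q hc => absurd (Nat.le_zero.mp hc) Nat.card_pos.ne'
    | succ c ihc =>
      intro Q hc hQ f hfQ hf hsum
      rcases subsingleton_or_nontrivial W with hW | hW
      · exact fun y _ => hinj (Subsingleton.elim _ _)
      by_cases hred : ∃ U : Submodule k W, (∀ y ∈ Q, ∀ u ∈ U, ρ y u ∈ U) ∧ (∀ u ∈ U, ρ f u ∈ U) ∧
          U ≠ ⊥ ∧ U ≠ ⊤
      · obtain ⟨U, hUQ, hUf, hUb, hUt⟩ := hred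
        let Γ₀ := stabilizerSubgroup ρ U
        have hQ₀ : Q ≤ Γ₀ := fun y hy => hUQ y hy
        let ρU : Γ₀ →* Module.End k U :=
          { toFun := fun g => (ρ (g : Γ)).restrict g.2
            map_one' := LinearMap.ext fun u => Subtype.ext (by
              show ρ ((1 : Γ₀) : Γ) u = u
              rw [Subgroup.coe_one, map_one]; rfl)
            map_mul' := fun a b => LinearMap.ext fun u => Subtype.ext (by
              show ρ ((a * b : Γ₀) : Γ) u = ρ (a : Γ) (ρ (b : Γ) u)
              rw [Subgroup.coe_mul, map_mul]; rfl) }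
        let ρW : Γ₀ →* Module.End k (W ⧸ U) :=
          { toFun := fun g => U.mapQ U (ρ (g : Γ)) g.2
            map_one' := Submodule.linearMap_qext _ (LinearMap.ext fun w => by
              show Submodule.Quotient.mk (ρ ((1 : Γ₀) : Γ) w) = Submodule.Quotient.mk w
              rw [Subgroup.coe_one, map_one]; rfl)
            map_mul' := fun a b => Submodule.linearMap_qext _ (LinearMap.ext fun w => by
              show Submodule.Quotient.mk (ρ ((a * b : Γ₀) : Γ) w) =
                Submodule.Quotient.mk (ρ (a : Γ) (ρ (b : Γ) w))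
              rw [Subgroup.coe_mul, map_mul]; rfl) }
        have hsumw : ∀ w, ∑ i ∈ Finset.range p, ρ (f ^ i) w = 0 := fun w => by
          have := LinearMap.congr_fun hsum w
          simpa [LinearMap.sum_apply, map_pow] using this
        let f₀ : Γ₀ := ⟨f, hUf⟩
        let Q₀ : Subgroup Γ₀ := Q.subgroupOf Γ₀
        have part : ∀ (X : Type w) [AddCommGroup X] [Module k X] [FiniteDimensional k X]
            (σ : Γ₀ →* Module.End k X), Module.finrank k X ≤ n → ∑ i ∈ Finset.range p, σ f₀ ^ i = 0 →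
            ∀ y : Γ₀, (y : Γ) ∈ Q → σ (f₀ * y * f₀⁻¹ * y⁻¹) = 1 := by
          intro X _ _ _ σ hX hσ y hy
          haveI : Finite σ.toHomUnits.range := Finite.of_surjective _ σ.toHomUnits.rangeRestrict_surjective
          let τ : σ.toHomUnits.range →* Module.End k X :=
            (Units.coeHom _).comp σ.toHomUnits.range.subtype
          have hτ : Function.Injective τ := fun a b h => Subtype.ext (Units.ext h)
          have h1 : ∀ g : Γ₀, τ (σ.toHomUnits.rangeRestrict g) = σ g := fun g => rfl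
          have hQ' : Q₀ ≤ ⊤ := le_top
          have := ihn X hX _ τ hτ (Q₀.map σ.toHomUnits.rangeRestrict)
            ((hQ.comap_of_injective Γ₀.subtype Γ₀.subtype_injective).map _)
            (σ.toHomUnits.rangeRestrict f₀) (by
              refine le_normalizer_map _ (mem_map_of_mem _ ?_)
              rw [mem_normalizer_iff]
              intro z
              exact mem_normalizer_iff.mp hfQ (z : Γ))
            (by rw [← map_pow, show f₀ ^ p = 1 from Subtype.ext hf, map_one])
            (by simpa [h1] using hσ) _ (mem_map_of_mem _ (x := y) hy)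
          have h2 : σ.toHomUnits.rangeRestrict (f₀ * y * f₀⁻¹ * y⁻¹) = 1 := by
            rw [map_mul, map_mul, map_mul, map_inv, map_inv, this, mul_inv_cancel_right, mul_inv_cancel]
          rw [← h1, h2, map_one]
        have hnU : Module.finrank k U ≤ n := by have := Submodule.finrank_lt hUt; omega
        have hnW : Module.finrank k (W ⧸ U) ≤ n := by
          have h1 := U.finrank_quotient_add_finrank
          have h2 : Module.finrank k U ≠ 0 := fun h => hUb (Submodule.finrank_eq_zero.mp h)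
          omega
        intro y hy
        let y₀ : Γ₀ := ⟨y, hQ₀ hy⟩
        let d : Γ₀ := f₀ * y₀ * f₀⁻¹ * y₀⁻¹
        have h1 : ρU d = 1 := part U ρU hnU (LinearMap.ext fun u => Subtype.ext (by
          simp only [← map_pow, LinearMap.sum_apply, Submodule.coe_sum]
          exact hsumw u)) y₀ hy
        have h2 : ρW d = 1 := part (W ⧸ U) ρW hnW (Submodule.linearMap_qext _ (LinearMap.ext fun w => by
          simp only [← map_pow, LinearMap.comp_apply, LinearMap.sum_apply, LinearMap.zero_comp,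
            LinearMap.zero_apply]
          show ∑ i ∈ Finset.range p, Submodule.Quotient.mk (ρ (((f₀ ^ i : Γ₀)) : Γ) w) = 0
          refine (Finset.sum_congr rfl fun i _ => (rfl : _ = U.mkQ (ρ (f ^ i) w))).trans ?_
          rw [← map_sum, hsumw, map_zero])) y₀ hy
        have hd : (d : Γ) = f * y * f⁻¹ * y⁻¹ := rfl
        have hdQ : (d : Γ) ∈ Q := hd ▸ Q.mul_mem ((mem_normalizer_iff.mp hfQ y).mp hy) (Q.inv_mem hy)
        have hsq : (ρ (d : Γ) - 1) * (ρ (d : Γ) - 1) = 0 := by
          apply LinearMap.ext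
          intro w
          have hw : (ρ (d : Γ) - 1) w ∈ U := by
            rw [← Submodule.Quotient.mk_eq_zero, LinearMap.sub_apply, Submodule.Quotient.mk_sub, sub_eq_zero]
            exact LinearMap.congr_fun h2 (Submodule.Quotient.mk w)
          have := congrArg Subtype.val (LinearMap.congr_fun h1 ⟨_, hw⟩)
          show ρ (d : Γ) ((ρ (d : Γ) - 1) w) - (ρ (d : Γ) - 1) w = 0
          exact sub_eq_zero.mpr this
        obtain ⟨j, hj⟩ := hQ ⟨_, hdQ⟩
        have hdone : ρ (d : Γ) - 1 = 0 := sq_zero_eq_one hsq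
          (m := q ^ j) (k := k) (by rw [Nat.cast_pow]; exact pow_ne_zero _ hq0) (by
            rw [add_sub_cancel, ← map_pow, show (d : Γ) ^ q ^ j = 1 from congrArg Subtype.val hj, map_one])
        have hd1 : (d : Γ) = 1 := hinj (by rw [map_one]; exact sub_eq_zero.mp hdone)
        rw [hd, mul_inv_eq_one, mul_inv_eq_iff_eq_mul] at hd1
        exact hd1
      · push Not at hred
        exact irreducible_case hp hq hqp hex hp0 hq0 ρ hinj Q hQ f hfQ hf hsum
          (fun U h1 h2 => or_iff_not_imp_left.mpr fun h => hred U h1 h2 h)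
          (fun U hU hne hfU => ihc U (by
            have h1 := Nat.card_le_card_of_injective _ (inclusion_injective hU)
            have h2 : Nat.card U ≠ Nat.card Q := fun e => hne (eq_of_le_of_card_ge hU e.ge)
            omega) (hQ.to_le hU) f hfU hf hsum)

theorem commute_of_sum_eq_zero {l : ℕ} [Fact l.Prime] (hp : p.Prime) (hq : q.Prime) (hqp : q ≠ p)
    (hlp : l ≠ p) (hlq : l ≠ q) (hex : NotException p q) {Γ : Type*} [Group Γ] [Finite Γ] {A : Type*}
    [AddCommGroup A] [Module (ZMod l) A] [Finite A] (φ : Γ →* AddMonoid.End A) {Q : Subgroup Γ}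
    (hQ : IsPGroup q Q) {f : Γ} (hfQ : f ∈ normalizer (Q : Set Γ)) (hf : f ^ p = 1)
    (hcyc : ∀ a : A, ∑ i ∈ Finset.range p, φ (f ^ i) a = 0) :
    ∀ y ∈ Q, ∀ a : A, φ f (φ y a) = φ y (φ f a) := by
  classical
  have hl : l.Prime := Fact.out
  let μ : Γ →* Module.End (ZMod l) A :=
    { toFun := fun g => (φ g : A →+ A).toZModLinearMap l
      map_one' := LinearMap.ext fun a => by
        show φ 1 a = a
        rw [map_one]; rfl
      map_mul' := fun g h => LinearMap.ext fun a => by
        show φ (g * h) a = φ g (φ h a)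
        rw [map_mul]; rfl }
  let K := AlgebraicClosure (ZMod l)
  have hchar : ∀ m : ℕ, m.Prime → l ≠ m → (m : K) ≠ 0 := fun m hm hne h => hne
    ((Nat.prime_dvd_prime_iff_eq hl hm).mp ((CharP.cast_eq_zero_iff K l m).mp h))
  let ρ : Γ →* Module.End K (TensorProduct (ZMod l) K A) :=
    (Module.End.baseChangeHom (ZMod l) K A).toMonoidHom.comp μ
  have hμsum : ∑ i ∈ Finset.range p, μ f ^ i = 0 := by
    apply LinearMap.ext
    intro a
    rw [LinearMap.sum_apply, LinearMap.zero_apply]
    simp only [← map_pow]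
    exact hcyc a
  have hsum : ∑ i ∈ Finset.range p, ρ f ^ i = 0 := by
    show ∑ i ∈ Finset.range p, (Module.End.baseChangeHom (ZMod l) K A) (μ f) ^ i = 0
    simp only [← map_pow, ← map_sum]
    rw [show ∑ i ∈ Finset.range p, μ (f ^ i) = ∑ i ∈ Finset.range p, μ f ^ i by simp only [map_pow], hμsum,
      map_zero]
  have hinj : ∀ a b : Γ, ρ a = ρ b → μ a = μ b := fun a b h => by
    let bs := Module.Free.chooseBasis (ZMod l) A
    refine bs.ext fun i => bs.repr.injective (Finsupp.ext fun j => ?_)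
    have h2 : (1 : K) ⊗ₜ[ZMod l] μ a (bs i) = (1 : K) ⊗ₜ[ZMod l] μ b (bs i) :=
      LinearMap.congr_fun h ((1 : K) ⊗ₜ[ZMod l] bs i)
    have h3 := congrArg (fun z => (bs.baseChange K).repr z j) h2
    simp only [Module.Basis.baseChange_repr_tmul, Algebra.smul_def, mul_one] at h3
    exact (algebraMap (ZMod l) K).injective h3
  haveI : Finite ρ.toHomUnits.range := Finite.of_surjective _ ρ.toHomUnits.rangeRestrict_surjective
  let τ : ρ.toHomUnits.range →* Module.End K (TensorProduct (ZMod l) K A) :=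
    (Units.coeHom _).comp ρ.toHomUnits.range.subtype
  have hτ : Function.Injective τ := fun a b h => Subtype.ext (Units.ext h)
  have hτρ : ∀ g : Γ, τ (ρ.toHomUnits.rangeRestrict g) = ρ g := fun g => rfl
  intro y hy a
  have key := commute_all_aux hp hq hqp hex (hchar p hp hlp) (hchar q hq hlq) _
    (TensorProduct (ZMod l) K A) le_rfl _ τ hτ
    (Q.map ρ.toHomUnits.rangeRestrict) (hQ.map _) (ρ.toHomUnits.rangeRestrict f)
    (le_normalizer_map _ (mem_map_of_mem _ hfQ))
    (by rw [← map_pow, hf, map_one]) (by simpa [hτρ] using hsum) _ (mem_map_of_mem _ hy)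
  rw [← map_mul, ← map_mul] at key
  have h2 := congrArg τ key
  rw [hτρ, hτρ] at h2
  have h3 := LinearMap.congr_fun (hinj _ _ h2) a
  rw [map_mul μ, map_mul μ] at h3
  exact h3

variable {Γ : Type*} [Group Γ] [Finite Γ] {V : Type*} [CommGroup V] [Finite V] [MulDistribMulAction Γ V]

/-- A fixed-point-free element of prime order commutes with the `q`-groups it normalises, as
operators on an invariant section of exponent prime to both orders. -/
theorem commute_of_cycProd_eq_one {l : ℕ} (hl : l.Prime) (hp : p.Prime) (hq : q.Prime) (hqp : q ≠ p)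
    (hlp : l ≠ p) (hlq : l ≠ q) (hex : NotException p q) {Q : Subgroup Γ} (hQ : IsPGroup q Q) {f : Γ}
    (hfQ : f ∈ normalizer (Q : Set Γ)) (hf : f ^ p = 1) (W : Subgroup V) (hWl : ∀ w ∈ W, w ^ l = 1)
    (hWQ : ∀ y ∈ Q, ∀ w ∈ W, y • w ∈ W) (hWf : ∀ w ∈ W, f • w ∈ W)
    (hcyc : ∀ w ∈ W, cycProd f p w = 1) : ∀ y ∈ Q, ∀ w ∈ W, f • y • w = y • f • w := by
  classical
  haveI := Fact.mk hl
  let M : Submonoid Γ :=
    { carrier := {g | ∀ w ∈ W, g • w ∈ W}
      one_mem' := fun w hw => by rwa [one_smul]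
      mul_mem' := fun {a b} ha hb w hw => by rw [mul_smul]; exact ha _ (hb w hw) }
  let Γ₀ : Subgroup Γ :=
    { M with
      inv_mem' := fun {g} hg => by
        have h1 : g⁻¹ = g ^ (orderOf g - 1) := by
          rw [inv_eq_iff_mul_eq_one, ← pow_succ', Nat.sub_add_cancel (orderOf_pos g), pow_orderOf_eq_one]
        rw [h1]
        exact M.pow_mem (show g ∈ M from hg) _ }
  have hl0 : ∀ x : Additive W, l • x = 0 := fun x => by
    apply Additive.toMul.injective
    exact Subtype.ext (hWl _ (Additive.toMul x).2)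
  let φ : Γ₀ →* AddMonoid.End (Additive W) :=
    { toFun := fun g => (MonoidHom.mk' (fun w : W => (⟨(g : Γ) • (w : V), g.2 _ w.2⟩ : W))
        fun a b => Subtype.ext (smul_mul' (g : Γ) (a : V) b)).toAdditive
      map_one' := AddMonoidHom.ext fun w => Additive.toMul.injective
        (Subtype.ext (one_smul Γ ((Additive.toMul w : W) : V)))
      map_mul' := fun a b => AddMonoidHom.ext fun w => Additive.toMul.injective
        (Subtype.ext (mul_smul (a : Γ) (b : Γ) ((Additive.toMul w : W) : V))) }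
  have hφ : ∀ (g : Γ₀) (w : Additive W),
      ((Additive.toMul (φ g w) : W) : V) = (g : Γ) • ((Additive.toMul w : W) : V) := fun _ _ => rfl
  intro y hy w hw
  let _ := AddCommGroup.zmodModule hl0
  have key := commute_of_sum_eq_zero (l := l) hp hq hqp hlp hlq hex φ
    (Q := Q.subgroupOf Γ₀) (hQ.comap_of_injective Γ₀.subtype Γ₀.subtype_injective) (f := ⟨f, hWf⟩)
    (by
      rw [mem_normalizer_iff]
      intro z
      exact mem_normalizer_iff.mp hfQ (z : Γ))
    (Subtype.ext hf) (fun a => by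
      apply Additive.toMul.injective
      rw [toMul_sum, toMul_zero]
      apply Subtype.ext
      rw [Subgroup.val_finsetProd, Subgroup.coe_one]
      exact hcyc _ (Additive.toMul a).2)
    ⟨y, hWQ y hy⟩ hy (Additive.ofMul ⟨w, hw⟩)
  exact congrArg (fun z => ((Additive.toMul z : W) : V)) key

end general

end Cfsg.Agent.Lib.FitHeight
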